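import Cfsg.Agent.H48.OddInvolution
import Cfsg.Agent.S1124
import Mathlib.SetTheory.Cardinal.Finite
import Mathlib.Tactic.Group
import Mathlib.Tactic.Ring

/-!
# The order formula for a four-group acting on a group of odd order

`|W| |C_W(V)| ^ 2 = |C_W(t)| |C_W(a)| |C_W(ta)|` for a four-group `V = ⟨t, a⟩`, and the number of
involutions in a coset of a normal subgroup of odd order.
-/

set_option autoImplicit false
set_option linter.unusedSectionVars false

namespace Cfsg.Agent.H48.SylowEight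

open Cfsg

variable {G : Type*} [Group G] [Finite G] {W : Subgroup G} {t a : G}

theorem conj_mul' (t x y : G) : t * (x * y) * t⁻¹ = t * x * t⁻¹ * (t * y * t⁻¹) := by group

theorem conj_inv' (t x : G) : t * x⁻¹ * t⁻¹ = (t * x * t⁻¹)⁻¹ := by group

/-- The equation `w z⁻¹ w = y` has at most one solution in a group of odd order. -/
theorem solution_unique (hodd : Odd (Nat.card W)) {z w w' : G} (hz : z ∈ W) (hw : w ∈ W)
    (hw' : w' ∈ W) (h : w * z⁻¹ * w = w' * z⁻¹ * w') : w = w' := by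
  have h1 : (w * z⁻¹) * (w * z⁻¹) = (w' * z⁻¹) * (w' * z⁻¹) := by
    rw [← mul_assoc, ← mul_assoc, h]
  exact mul_right_cancel (eq_of_mul_self_eq
    (odd_orderOf hodd (W.mul_mem hw (W.inv_mem hz)))
    (odd_orderOf hodd (W.mul_mem hw' (W.inv_mem hz))) h1)

/-- A solution exists. -/
theorem solution_exists (hodd : Odd (Nat.card W)) {z y : G} (hz : z ∈ W) (hy : y ∈ W) :
    ∃ w ∈ W, w * z⁻¹ * w = y := by
  have hyz : y * z⁻¹ ∈ W := W.mul_mem hy (W.inv_mem hz)
  refine ⟨oddRoot (y * z⁻¹) * z, W.mul_mem (oddRoot_mem hyz) hz, ?_⟩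
  rw [mul_inv_cancel_right, ← mul_assoc, oddRoot_mul_self (odd_orderOf hodd hyz),
    inv_mul_cancel_right]

/-- The set inverted by `t` and centralised by `a`. -/
def mixedSet (W : Subgroup G) (t a : G) : Set G :=
  invertedBy (W ⊓ Subgroup.centralizer ({a} : Set G)) t

theorem mem_mixedSet {x : G} :
    x ∈ mixedSet W t a ↔ x ∈ W ∧ a * x * a⁻¹ = x ∧ t * x * t⁻¹ = x⁻¹ := by
  simp only [mixedSet, invertedBy, Set.mem_setOf_eq, Subgroup.mem_inf,
    Subgroup.mem_centralizer_singleton_iff, mul_inv_eq_iff_eq_mul, and_assoc]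
  constructor
  · rintro ⟨h1, h2, h3⟩; exact ⟨h1, h2.symm, h3⟩
  · rintro ⟨h1, h2, h3⟩; exact ⟨h1, h2.symm, h3⟩

variable (ht : t * t = 1) (ha : a * a = 1) (hta : t * a = a * t)
  (hnt : ∀ x ∈ W, t * x * t⁻¹ ∈ W) (hna : ∀ x ∈ W, a * x * a⁻¹ ∈ W) (hodd : Odd (Nat.card W))

include ht ha hta hnt hna hodd

/-- The elements inverted by `t` factor through the two centralisers. -/
theorem card_invertedBy_eq_mul :
    Nat.card (invertedBy W t) = Nat.card (mixedSet W t a) * Nat.card (mixedSet W t (t * a)) := by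
  rw [← Nat.card_prod]
  have htq : ∀ q : G, q ∈ mixedSet W t (t * a) → a * q * a⁻¹ = q⁻¹ := fun q hq => by
    rw [mem_mixedSet] at hq
    calc a * q * a⁻¹ = t * ((t * a) * q * (t * a)⁻¹) * t⁻¹ := by
          rw [inv_eq_self' (show t * t = 1 from ht), mul_inv_rev,
            inv_eq_self' (show t * t = 1 from ht), inv_eq_self' (show a * a = 1 from ha)]
          calc a * q * a = (t * t) * a * q * a * (t * t) := by rw [ht]; group
            _ = _ := by group
      _ = q⁻¹ := by rw [hq.2.1, hq.2.2]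
  let f : mixedSet W t a × mixedSet W t (t * a) → invertedBy W t := fun x =>
    ⟨x.1.1 * x.2.1 * x.1.1, by
      obtain ⟨hp1, -, hp3⟩ := mem_mixedSet.1 x.1.2
      obtain ⟨hq1, -, hq3⟩ := mem_mixedSet.1 x.2.2
      refine ⟨W.mul_mem (W.mul_mem hp1 hq1) hp1, ?_⟩
      rw [conj_mul', conj_mul', hp3, hq3]
      group⟩
  symm
  refine Nat.card_congr (Equiv.ofBijective f ⟨?_, ?_⟩)
  · rintro ⟨p, q⟩ ⟨p', q'⟩ h
    have h' : p.1 * q.1 * p.1 = p'.1 * q'.1 * p'.1 := congrArg Subtype.val h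
    obtain ⟨hp1, hp2, -⟩ := mem_mixedSet.1 p.2
    obtain ⟨hp1', hp2', -⟩ := mem_mixedSet.1 p'.2
    have hq1 := (mem_mixedSet.1 q.2).1
    have key : ∀ (p q : G), a * p * a⁻¹ = p → a * q * a⁻¹ = q⁻¹ →
        a * (p * q * p) * a⁻¹ = (p * p) * (p * q * p)⁻¹ * (p * p) := by
      intro p q h1 h2
      rw [conj_mul', conj_mul', h1, h2]
      group
    have e : p.1 * p.1 = p'.1 * p'.1 := by
      refine solution_unique hodd (W.mul_mem (W.mul_mem hp1 hq1) hp1) (W.mul_mem hp1 hp1)
        (W.mul_mem hp1' hp1') ?_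
      rw [← key _ _ hp2 (htq _ q.2), h', key _ _ hp2' (htq _ q'.2)]
    have e1 : p.1 = p'.1 := eq_of_mul_self_eq (odd_orderOf hodd hp1) (odd_orderOf hodd hp1') e
    rw [e1] at h'
    exact Prod.ext (Subtype.ext e1) (Subtype.ext (mul_left_cancel (mul_right_cancel h')))
  · rintro ⟨z, hzW, hzt⟩
    set y := a * z * a⁻¹ with hy
    have hyt : t * y * t⁻¹ = y⁻¹ := by
      calc t * y * t⁻¹ = (t * a) * z * (t * a)⁻¹ := by rw [hy]; group
        _ = a * (t * z * t⁻¹) * a⁻¹ := by rw [hta]; group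
        _ = y⁻¹ := by rw [hzt, hy]; group
    obtain ⟨w, hwW, hw⟩ := solution_exists hodd hzW (hna z hzW)
    have hwa : a * w * a⁻¹ = w := by
      refine solution_unique hodd hzW (hna w hwW) hwW ?_
      rw [hw, ← hy]
      generalize hv : a * w * a⁻¹ = v
      have h1 : v * y⁻¹ * v = z := by
        calc v * y⁻¹ * v = a * (w * z⁻¹ * w) * a⁻¹ := by rw [hy, ← hv]; group
          _ = z := by rw [hw]; exact conj_conj_self ha z
      have h2 : v⁻¹ * z * v⁻¹ = y⁻¹ := by rw [← h1]; group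
      calc v * z⁻¹ * v = (v⁻¹ * z * v⁻¹)⁻¹ := by group
        _ = y := by rw [h2, inv_inv]
    have hwt : t * w * t⁻¹ = w⁻¹ := by
      have h0 : (t * w * t⁻¹)⁻¹ = w := by
        refine solution_unique hodd hzW (W.inv_mem (hnt w hwW)) hwW ?_
        have h1 : t * w * t⁻¹ * z * (t * w * t⁻¹) = y⁻¹ := by
          rw [← hyt, hy, ← hw, conj_mul', conj_mul', conj_inv', hzt, inv_inv]
        rw [hw, ← inv_inj, ← h1]
        group
      rw [← h0, inv_inv]
      exact congrArg (fun e => t * e * t⁻¹) h0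
    set p := oddRoot w with hp
    have hpp : p * p = w := oddRoot_mul_self (odd_orderOf hodd hwW)
    have hpW : p ∈ W := oddRoot_mem hwW
    have hpa : a * p * a⁻¹ = p := by rw [hp, conj_oddRoot, hwa]
    have hpt : t * p * t⁻¹ = p⁻¹ := by rw [hp, conj_oddRoot, hwt, oddRoot_inv]
    set q := p⁻¹ * z * p⁻¹ with hq
    have hqa : a * q * a⁻¹ = q⁻¹ := by
      rw [hq, conj_mul', conj_mul', conj_inv', hpa, ← hw, ← hpp]
      group
    have hqt : t * q * t⁻¹ = q⁻¹ := by
      rw [hq, conj_mul', conj_mul', conj_inv', hpt, hzt]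
      group
    refine ⟨⟨⟨p, mem_mixedSet.2 ⟨hpW, hpa, hpt⟩⟩, ⟨q, mem_mixedSet.2 ⟨?_, ?_, hqt⟩⟩⟩,
      Subtype.ext ?_⟩
    · exact W.mul_mem (W.mul_mem (W.inv_mem hpW) hzW) (W.inv_mem hpW)
    · calc t * a * q * (t * a)⁻¹ = t * (a * q * a⁻¹) * t⁻¹ := by group
        _ = q := by rw [hqa, conj_inv', hqt, inv_inv]
    · show p * q * p = z
      rw [hq]; group

omit ha hta hna in
/-- The centraliser of an element, the fixed part and the mixed set. -/
theorem card_centralizer_factor {b : G} (hbt : t * b = b * t) :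
    Nat.card ↥(W ⊓ Subgroup.centralizer ({b} : Set G)) =
      Nat.card ↥(W ⊓ Subgroup.centralizer ({b} : Set G) ⊓ Subgroup.centralizer ({t} : Set G)) *
        Nat.card (mixedSet W t b) := by
  have ho : orderOf t = 2 ∨ t = 1 := by
    by_cases h : t = 1
    · exact Or.inr h
    · exact Or.inl (orderOf_eq_prime (by rw [pow_two, ht]) h)
  rcases ho with ho | rfl
  · refine (S1124.result t ho (W ⊓ Subgroup.centralizer ({b} : Set G))
      (hodd.of_dvd_nat (Subgroup.card_dvd_of_le inf_le_left)) fun x hx => ?_).2.1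
    refine Subgroup.mem_inf.2 ⟨hnt x (Subgroup.mem_inf.1 hx).1,
      Subgroup.mem_centralizer_singleton_iff.2 ?_⟩
    have hxb := Subgroup.mem_centralizer_singleton_iff.1 (Subgroup.mem_inf.1 hx).2
    have h1 : Commute (t * x * t⁻¹) b :=
      (Commute.mul_left (Commute.mul_left hbt hxb) (Commute.inv_left hbt))
    exact h1.eq
  · have h1 : (W ⊓ Subgroup.centralizer ({b} : Set G) ⊓ Subgroup.centralizer ({1} : Set G)) =
        W ⊓ Subgroup.centralizer ({b} : Set G) := by
      refine inf_eq_left.2 fun x _ => Subgroup.mem_centralizer_singleton_iff.2 (by simp)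
    have h2 : mixedSet W 1 b = {(1 : G)} := by
      ext x
      rw [mem_mixedSet, Set.mem_singleton_iff]
      constructor
      · rintro ⟨hx, -, h⟩
        rw [one_mul, inv_one, mul_one] at h
        exact eq_of_mul_self_eq (odd_orderOf hodd hx) (by simp) (by
          rw [one_mul]; nth_rewrite 2 [h]; exact mul_inv_cancel x)
      · rintro rfl; simp
    rw [h1, h2]
    simp

/-- The order formula of a four-group. -/
theorem card_four_formula :
    Nat.card W * Nat.card ↥(W ⊓ Subgroup.centralizer ({t} : Set G) ⊓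
      Subgroup.centralizer ({a} : Set G)) ^ 2 =
    Nat.card ↥(W ⊓ Subgroup.centralizer ({t} : Set G)) *
      Nat.card ↥(W ⊓ Subgroup.centralizer ({a} : Set G)) *
      Nat.card ↥(W ⊓ Subgroup.centralizer ({t * a} : Set G)) := by
  rcases eq_or_ne t 1 with rfl | ht1
  · have h1 : W ⊓ Subgroup.centralizer ({1} : Set G) = W :=
      inf_eq_left.2 fun x _ => Subgroup.mem_centralizer_singleton_iff.2 (by simp)
    rw [h1, one_mul, pow_two, mul_assoc]
  have hW := (S1124.result t (orderOf_eq_prime (by rw [pow_two, ht]) ht1) W hodd hnt).2.1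
  have h1 := card_centralizer_factor ht hnt hodd (b := a) hta
  have h2 := card_centralizer_factor ht hnt hodd (b := t * a)
    (by rw [mul_assoc t a t, ← hta])
  have e1 : W ⊓ Subgroup.centralizer ({a} : Set G) ⊓ Subgroup.centralizer ({t} : Set G) =
      W ⊓ Subgroup.centralizer ({t} : Set G) ⊓ Subgroup.centralizer ({a} : Set G) := by
    rw [inf_assoc, inf_comm (Subgroup.centralizer _), ← inf_assoc]
  have e2 : W ⊓ Subgroup.centralizer ({t * a} : Set G) ⊓ Subgroup.centralizer ({t} : Set G) =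
      W ⊓ Subgroup.centralizer ({t} : Set G) ⊓ Subgroup.centralizer ({a} : Set G) := by
    ext x
    simp only [Subgroup.mem_inf, Subgroup.mem_centralizer_singleton_iff]
    refine ⟨fun ⟨⟨h, hx⟩, hxt⟩ => ⟨⟨h, hxt⟩, ?_⟩,
      fun ⟨⟨h, hxt⟩, hxa⟩ => ⟨⟨h, (Commute.mul_right hxt hxa).eq⟩, hxt⟩⟩
    refine mul_left_cancel (a := t) ?_
    rw [← mul_assoc, ← hxt, mul_assoc, hx, mul_assoc]
  rw [e1] at h1
  rw [e2] at h2
  rw [card_invertedBy_eq_mul ht ha hta hnt hna hodd] at hW
  rw [hW, h1, h2]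
  ring

end Cfsg.Agent.H48.SylowEight
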