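import Cfsg.Agent.H48.SylowEight.Order
import Cfsg.Agent.H48.SylowEight.FourFormula
import Cfsg.Agent.H35.SigFunTwo
import Cfsg.Agent.H51.ConstrainedCores
import Cfsg.Agent.H80.CentTwoAlt.Elementary
import Cfsg.Agent.S1279
import Cfsg.Agent.S1124
import Mathlib.GroupTheory.Perm.Cycle.Type

/-!
# The automiser of an elementary abelian Sylow 2-subgroup of order eight
-/

set_option autoImplicit false
set_option synthInstance.maxSize 4096
set_option linter.unusedSectionVars false
set_option maxHeartbeats 1000000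

namespace Cfsg.Agent.H48.SylowEight

open Subgroup
open Cfsg.Agent.H80.CentTwoAlt (M τ vA twoPart card_twoPart)

variable {G : Type*} [Group G] [Finite G]

theorem mul_tau_mem : ∀ m : M, m * m = 1 → m ≠ 1 → m ≠ τ →
    m * τ * (m * τ) = 1 ∧ m * τ ≠ 1 ∧ m * τ ≠ τ := by decide +kernel

theorem vA_mem : ((1, vA) : M) * (1, vA) = 1 ∧ ((1, vA) : M) ≠ 1 ∧ ((1, vA) : M) ≠ τ := by
  decide +kernel

/-- An element of odd order which is an involution. -/
theorem eq_one_of_odd {W : Subgroup G} (hodd : Odd (Nat.card W)) {x : G} (hx : x ∈ W)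
    (hx2 : x * x = 1) : x = 1 :=
  eq_of_mul_self_eq (odd_orderOf hodd hx) (by simp) (by rw [hx2, one_mul])

variable {S : Sylow 2 G} {t : G}

/-- Every involution of the image lifts to the Sylow subgroup. -/
theorem exists_lift (h8 : Nat.card (S : Subgroup G) = 8) (hS : ∀ x ∈ (S : Subgroup G), x * x = 1)
    (htS : t ∈ (S : Subgroup G)) (φ : centralizer ({t} : Set G) →* M) (hodd : Odd (Nat.card φ.ker))
    {m : M} (hm : m * m = 1) :
    ∃ a : centralizer ({t} : Set G), (a : G) ∈ (S : Subgroup G) ∧ φ a = m := by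
  have hcomm := H80.CentTwoAlt.comm_of_sq hS
  have hle : (S : Subgroup G) ≤ centralizer ({t} : Set G) := fun x hx =>
    mem_centralizer_singleton_iff.2 (congrArg Subtype.val (hcomm.is_comm.comm ⟨x, hx⟩ ⟨t, htS⟩))
  let f : ↥(S : Subgroup G) → twoPart := fun x => ⟨φ (inclusion hle x), by
    show φ _ * φ _ = 1
    rw [← map_mul, show inclusion hle x * inclusion hle x = 1 from Subtype.ext (hS x x.2), map_one]⟩
  have hinj : Function.Injective f := by
    intro x y h
    have h' : φ (inclusion hle x) = φ (inclusion hle y) := congrArg Subtype.val h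
    have hk : inclusion hle (x * y⁻¹) ∈ φ.ker := by
      rw [MonoidHom.mem_ker, map_mul, map_inv, map_mul, map_inv, h', mul_inv_cancel]
    have h1 := eq_one_of_odd hodd hk (Subtype.ext (hS _ (x * y⁻¹).2))
    exact mul_inv_eq_one.1 (inclusion_injective hle (h1.trans (map_one _).symm))
  obtain ⟨x, hx⟩ := ((Function.Injective.bijective_of_nat_card_le hinj
    (by rw [card_twoPart, h8])).surjective ⟨m, hm⟩)
  exact ⟨inclusion hle x, x.2, congrArg Subtype.val hx⟩

/-- The kernel as a subgroup of the group is the core of the centraliser. -/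
theorem core_eq_map (φ : centralizer ({t} : Set G) →* M)
    (hker : φ.ker = Cfsg.pPrimeCore 2 ↥(centralizer ({t} : Set G))) :
    Cfsg.centralizerPPrimeCore 2 t = φ.ker.map (centralizer ({t} : Set G)).subtype := by
  rw [hker]; rfl

/-- The number of involutions over the image of an involution. -/
theorem lifts_eq (St : Setting G) [Fintype G] {a : St.H} (ha : a * a = 1) :
    St.lifts (St.φ a) =
      Nat.card (Cfsg.invertedBy (St.φ.ker.map (St.H).subtype) (a : G)) := by
  have ha' : (a : G) * (a : G) = 1 := congrArg Subtype.val ha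
  have hai : a⁻¹ = a := inv_eq_of_mul_eq_one_right ha
  refine Nat.card_congr
    { toFun := fun x => ⟨((x.1 * a : St.H) : G), ⟨x.1 * a, ?_, rfl⟩, ?_⟩
      invFun := fun z => ⟨⟨(z.1 : G), map_subtype_le _ z.2.1⟩ * a, ?_, ?_⟩
      left_inv := fun x => Subtype.ext ?_
      right_inv := fun z => Subtype.ext ?_ }
  · show x.1 * a ∈ St.φ.ker
    rw [MonoidHom.mem_ker, map_mul, x.2.1, ← map_mul, ha, map_one]
  · show (a : G) * ((x.1 : G) * (a : G)) * (a : G)⁻¹ = ((x.1 : G) * (a : G))⁻¹
    have hx : ((x.1 : G)) * (x.1 : G) = 1 := congrArg Subtype.val x.2.2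
    rw [mul_inv_rev, inv_eq_of_mul_eq_one_right ha', inv_eq_of_mul_eq_one_right hx,
      mul_assoc, mul_assoc, ha', mul_one]
  · obtain ⟨o, ho, hoz⟩ := z.2.1
    rw [show (⟨(z.1 : G), map_subtype_le _ z.2.1⟩ : St.H) = o from Subtype.ext hoz.symm, map_mul,
      MonoidHom.mem_ker.1 ho, one_mul]
  · refine Subtype.ext ?_
    show (z.1 : G) * a * ((z.1 : G) * a) = 1
    have h := z.2.2
    rw [inv_eq_of_mul_eq_one_right ha'] at h
    calc (z.1 : G) * a * ((z.1 : G) * a) = (z.1 : G) * ((a : G) * (z.1 : G) * a) := by group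
      _ = 1 := by rw [h, mul_inv_cancel]
  · show (⟨((x.1 * a : St.H) : G), _⟩ : St.H) * a = x.1
    rw [Subtype.ext_iff]
    show (x.1 : G) * a * a = x.1
    rw [mul_assoc, ha', mul_one]
  · show (z.1 : G) * a * a = z.1
    rw [mul_assoc, ha', mul_one]

/-- The configuration with automiser of order twenty-one does not occur. -/
theorem no_big_automiser [IsSimpleGroup G] (hG : ¬ IsMulCommutative G)
    (h8 : Nat.card (S : Subgroup G) = 8) (hS : ∀ x ∈ (S : Subgroup G), x * x = 1)
    (hC : ∀ t : G, orderOf t = 2 → Group.IsSolvable ↥(centralizer ({t} : Set G)))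
    (htS : t ∈ (S : Subgroup G)) (ht1 : t ≠ 1) (φ : centralizer ({t} : Set G) →* M)
    (hφ : Function.Surjective φ)
    (hker : φ.ker = Cfsg.pPrimeCore 2 ↥(centralizer ({t} : Set G)))
    (hmap : φ ⟨t, mem_centralizer_singleton_iff.mpr rfl⟩ = τ)
    {c : G} (hcN : c ∈ normalizer ((S : Subgroup G) : Set G))
    (hcC : c ∉ centralizer ((S : Subgroup G) : Set G))
    (hc7 : c ^ 7 ∈ centralizer ((S : Subgroup G) : Set G)) : False := by
  classical
  haveI := Fact.mk Nat.prime_two
  let _ : Fintype G := Fintype.ofFinite G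
  have hidx : ∀ H : Subgroup G, H.index ≠ 2 := by
    intro H hH
    rcases (normal_of_index_eq_two hH).eq_bot_or_eq_top with rfl | rfl
    · rw [index_bot] at hH
      haveI := Fact.mk Nat.prime_two
      have := isCyclic_of_prime_card (p := 2) hH
      exact hG IsCyclic.commutative
    · rw [index_top] at hH; omega
  have hodd : Odd (Nat.card φ.ker) := by
    rw [hker]; exact Nat.coprime_two_right.1 (H19.pPrimeCore_coprime 2)
  let St : Setting G :=
    { t := t, φ := φ, surj := hφ, odd := hodd, t_mul := hS t htS, map_t := hmap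
      fusion := fun {x} h1 h2 => isConj_iff.mpr
        (H80.CentTwoAlt.involutions_conj hidx S h8 hS (hS t htS) ht1 h1 h2) }
  set κ : ℕ := Nat.card φ.ker with hκ
  have hκpos : 0 < κ := Nat.card_pos
  set θ : G → Subgroup G := fun a => Cfsg.centralizerPPrimeCore 2 a with hθ
  set O : Subgroup G := φ.ker.map (centralizer ({t} : Set G)).subtype with hO
  have hθt : θ t = O := core_eq_map φ hker
  have hOcard : Nat.card O = κ := card_map_of_injective (subtype_injective _)
  have hcomm := H80.CentTwoAlt.comm_of_sq hS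
  -- all the cores have the same order
  have hθcard : ∀ a ∈ (S : Subgroup G), a ≠ 1 → Nat.card (θ a) = κ := by
    intro a ha ha1
    obtain ⟨n, -, rfl⟩ := H80.CentTwoAlt.normalizer_conj hidx S h8 hS htS ha ht1 ha1
    rw [← hOcard, ← hθt]
    show Nat.card (Cfsg.centralizerPPrimeCore 2 (MulAut.conj n t)) = _
    rw [← H51.centralizerPPrimeCore_map_aut 2 (MulAut.conj n) t]
    exact card_map_of_injective (MulAut.conj n).injective
  -- the signalizer functor
  have hA : Cfsg.IsElementaryAbelian 2 (S : Subgroup G) :=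
    ⟨hcomm, fun a ha => by rw [pow_two]; exact hS a ha⟩
  have hsig := S1279.result 2 (S : Subgroup G) hA (by rw [h8]; norm_num) fun a ha ha1 =>
    hC a (orderOf_eq_prime (by rw [pow_two]; exact hS a ha) ha1)
  obtain ⟨hmem, hfix, -⟩ := H35.SigFun.solvable_signalizer_functor_two hA (by rw [h8]; norm_num) hsig
  set W : Subgroup G := Cfsg.signalizerClosure (S : Subgroup G) θ with hW
  have hWodd : Odd (Nat.card W) := Nat.not_even_iff_odd.1 fun h => hmem.2.1 (even_iff_two_dvd.1 h)
  have hWS := hmem.2.2.1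
  have hWt : W ⊓ centralizer ({t} : Set G) = O := by rw [← hθt]; exact hfix t htS ht1
  -- the order formula on a four group
  have hfour : ∀ m : M, m * m = 1 → m ≠ 1 → m ≠ τ →
      κ * St.lifts m ^ 2 = Nat.card W := by
    intro m hm hm1 hmτ
    obtain ⟨a, haS, ham⟩ := exists_lift h8 hS htS φ hodd hm
    subst ham
    have ha' : (a : G) * (a : G) = 1 := hS _ haS
    have ha1 : (a : G) ≠ 1 := fun h => hm1 (by rw [show a = 1 from Subtype.ext h, map_one])
    have hta : t * (a : G) = (a : G) * t :=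
      (mem_centralizer_singleton_iff.1 a.2).symm
    have hta1 : t * (a : G) ≠ 1 := fun h => hmτ (by
      have : a = ⟨t, mem_centralizer_singleton_iff.mpr rfl⟩ := by
        refine Subtype.ext ?_
        show (a : G) = t
        calc (a : G) = t * t * a := by rw [hS t htS, one_mul]
          _ = t := by rw [mul_assoc, h, mul_one]
      rw [this, hmap])
    have hf := card_four_formula (W := W) (hS t htS) ha' hta (fun x hx => hWS t htS x hx)
      (fun x hx => hWS _ haS x hx) hWodd
    rw [hWt, hfix _ haS ha1, hfix _ (mul_mem htS haS) hta1, hθcard _ haS ha1,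
      hθcard _ (mul_mem htS haS) hta1, hOcard] at hf
    have hl : St.lifts (φ a) = Nat.card (Cfsg.invertedBy O (a : G)) :=
      lifts_eq St (a := a) (Subtype.ext ha')
    have hfac := (S1124.result (a : G) (orderOf_eq_prime (by rw [pow_two]; exact ha') ha1) O
      (by rw [hOcard]; exact hodd) fun x hx => by
        obtain ⟨o, ho, rfl⟩ := hx
        exact ⟨a * o * a⁻¹, (MonoidHom.normal_ker φ).conj_mem o ho a, rfl⟩).2.1
    rw [hOcard, ← hl] at hfac
    set f := Nat.card ↥(O ⊓ centralizer ({(a : G)} : Set G)) with hfdef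
    have hf0 : 0 < f ^ 2 := pow_pos Nat.card_pos 2
    refine Nat.eq_of_mul_eq_mul_right hf0 ?_
    rw [hf]
    calc κ * St.lifts (φ a) ^ 2 * f ^ 2 = κ * (f * St.lifts (φ a)) ^ 2 := by ring
      _ = κ * κ * κ := by rw [← hfac]; ring
  -- the constant
  obtain ⟨v1, v2, v3⟩ := vA_mem
  set K : ℕ := St.lifts (1, vA) ^ 2 with hK
  have hWK : κ * K = Nat.card W := hfour _ v1 v2 v3
  have hKall : ∀ m : M, m * m = 1 → m ≠ 1 → m ≠ τ → St.lifts m * St.lifts (m * τ) = K := by
    intro m hm hm1 hmτ
    obtain ⟨g1, g2, g3⟩ := mul_tau_mem m hm hm1 hmτ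
    have e1 := hfour m hm hm1 hmτ
    have e2 := hfour _ g1 g2 g3
    rw [← hWK] at e1 e2
    have f1 : St.lifts m ^ 2 = K := Nat.eq_of_mul_eq_mul_left hκpos e1
    have f2 : St.lifts (m * τ) ^ 2 = K := Nat.eq_of_mul_eq_mul_left hκpos e2
    rw [← f1, pow_two, (Nat.pow_left_injective two_ne_zero (f2.trans f1.symm) :
      St.lifts (m * τ) = St.lifts m)]
  have hord := St.card_eq (S : Subgroup G) h8 hS hKall
    (show κ * K ∣ Nat.card G by rw [hWK]; exact card_subgroup_dvd_card W)
  replace hord : Nat.card G = 2376 * Nat.card W := by rw [hord, ← hWK]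
  -- the element of order seven
  have hcW : c ∈ normalizer (W : Set G) := by
    have hle : W.map (MulAut.conj c).toMonoidHom ≤ W := by
      rw [hW, Cfsg.signalizerClosure, Subgroup.map_iSup]
      refine iSup_le fun a => ?_
      rw [H51.centralizerPPrimeCore_map_aut 2 (MulAut.conj c) (a : G)]
      exact le_iSup_of_le ⟨MulAut.conj c (a : G),
        ((mem_normalizer_iff.mp hcN (a : G)).mp a.2.1 : c * (a : G) * c⁻¹ ∈ (S : Subgroup G)),
        fun h => a.2.2 ((MulAut.conj c).injective (h.trans (map_one _).symm))⟩ le_rfl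
    have heq : W.map (MulAut.conj c).toMonoidHom = W :=
      eq_of_le_of_card_ge hle (le_of_eq (card_map_of_injective (MulAut.conj c).injective).symm)
    refine mem_normalizer_iff.mpr fun x => ⟨fun hx => heq ▸ ⟨x, hx, rfl⟩, fun hx => ?_⟩
    obtain ⟨y, hy, hyx⟩ := (heq.symm ▸ hx : c * x * c⁻¹ ∈ W.map (MulAut.conj c).toMonoidHom)
    exact ((MulAut.conj c).injective hyx) ▸ hy
  have hWC : ∀ w ∈ W, w ∈ normalizer ((S : Subgroup G) : Set G) →
      w ∈ centralizer ((S : Subgroup G) : Set G) := by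
    intro w hw hwN
    refine mem_centralizer_iff.2 fun s hs => ?_
    have h1 : s * w * s⁻¹ * w⁻¹ ∈ W := mul_mem (hWS s hs w hw) (inv_mem hw)
    have h2 : s * w * s⁻¹ * w⁻¹ ∈ (S : Subgroup G) := by
      rw [show s * w * s⁻¹ * w⁻¹ = s * (w * s⁻¹ * w⁻¹) by group]
      exact mul_mem hs ((mem_normalizer_iff.mp hwN s⁻¹).mp (inv_mem hs))
    have h3 := eq_one_of_odd hWodd h1 (hS _ h2)
    calc s * w = s * w * s⁻¹ * w⁻¹ * (w * s) := by group
      _ = w * s := by rw [h3, one_mul]
  set N := normalizer (W : Set G) with hN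
  let c' : N := ⟨c, hcW⟩
  have h7 : 7 ∣ orderOf (QuotientGroup.mk' (W.subgroupOf N) c') := by
    by_contra h
    set n := orderOf (QuotientGroup.mk' (W.subgroupOf N) c') with hn
    have hpow : QuotientGroup.mk' (W.subgroupOf N) (c' ^ n) = 1 := by
      rw [map_pow, pow_orderOf_eq_one]
    have hcn : c ^ n ∈ centralizer ((S : Subgroup G) : Set G) :=
      hWC _ (mem_subgroupOf.1 ((QuotientGroup.eq_one_iff _).1 hpow)) (pow_mem hcN n)
    apply hcC
    have hcop : Nat.gcd 7 n = 1 := (Nat.Prime.coprime_iff_not_dvd (by norm_num)).2 h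
    have hb := Nat.gcd_eq_gcd_ab 7 n
    rw [hcop] at hb
    rw [show c = c ^ (((7 : ℕ) : ℤ) * Nat.gcdA 7 n + (n : ℤ) * Nat.gcdB 7 n) by
      rw [← hb, Nat.cast_one, zpow_one], zpow_add, zpow_mul, zpow_mul, zpow_natCast, zpow_natCast]
    exact mul_mem (zpow_mem hc7 _) (zpow_mem hcn _)
  have hdvd : 7 * Nat.card W ∣ Nat.card G := by
    refine dvd_trans ?_ (card_subgroup_dvd_card N)
    rw [card_eq_card_quotient_mul_card_subgroup (W.subgroupOf N),
      Nat.card_congr (subgroupOfEquivOfLe (le_normalizer : W ≤ N)).toEquiv]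
    exact Nat.mul_dvd_mul_right (h7.trans (_root_.orderOf_dvd_natCard _)) _
  rw [hord] at hdvd
  exact absurd (Nat.dvd_of_mul_dvd_mul_right Nat.card_pos hdvd) (by norm_num)

/-- Seven divides the automiser, and equals it unless there are further elements. -/
theorem relIndex_cases (hidx : ∀ H : Subgroup G, H.index ≠ 2)
    (h8 : Nat.card (S : Subgroup G) = 8) (hS : ∀ x ∈ (S : Subgroup G), x * x = 1)
    (htS : t ∈ (S : Subgroup G)) (ht1 : t ≠ 1) :
    (centralizer ((S : Subgroup G) : Set G)).relIndex (normalizer ((S : Subgroup G) : Set G)) = 7 ∨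
      ((∃ r ∈ normalizer ((S : Subgroup G) : Set G), r * t = t * r ∧
          r ∉ centralizer ((S : Subgroup G) : Set G)) ∧
        ∃ c ∈ normalizer ((S : Subgroup G) : Set G),
          c ∉ centralizer ((S : Subgroup G) : Set G) ∧
          c ^ 7 ∈ centralizer ((S : Subgroup G) : Set G)) := by
  classical
  let N := normalizer ((S : Subgroup G) : Set G)
  let _ : MulAction N G := MulAction.compHom G ((MulAut.conj : G →* MulAut G).comp N.subtype)
  have horb : MulAction.orbit N t = ((S : Subgroup G) : Set G) \ {1} := by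
    ext z
    constructor
    · rintro ⟨n, rfl⟩
      exact ⟨(mem_normalizer_iff.mp n.2 t).mp htS, fun h => ht1 (conj_eq_one_iff.mp h)⟩
    · rintro ⟨hz, hz1⟩
      obtain ⟨n, hn, hnz⟩ := H80.CentTwoAlt.normalizer_conj hidx S h8 hS htS hz ht1 hz1
      exact ⟨⟨n, hn⟩, hnz⟩
  have h7 : (MulAction.stabilizer N t).index = 7 := by
    rw [MulAction.index_stabilizer, horb,
      Set.ncard_sdiff_singleton_of_mem (one_mem (S : Subgroup G)), ← Nat.card_coe_set_eq]
    simp only [SetLike.coe_sort_coe]
    omega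
  set K : Subgroup N := (centralizer ((S : Subgroup G) : Set G)).subgroupOf N with hKdef
  have hle : K ≤ MulAction.stabilizer N t := fun n hn => by
    rw [MulAction.mem_stabilizer_iff]
    show (n : G) * t * (n : G)⁻¹ = t
    rw [← mem_centralizer_iff.1 (mem_subgroupOf.1 hn) t htS, mul_inv_cancel_right]
  have hK7 : 7 ∣ K.index := h7 ▸ index_dvd_of_le hle
  by_cases hKs : MulAction.stabilizer N t ≤ K
  · left
    show K.index = 7
    rw [le_antisymm hle hKs, h7]
  · right
    obtain ⟨r, hr, hrK⟩ := SetLike.not_le_iff_exists.1 hKs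
    refine ⟨⟨r, r.2, ?_, fun h => hrK (mem_subgroupOf.2 h)⟩, ?_⟩
    · have h : (r : G) * t * (r : G)⁻¹ = t := MulAction.mem_stabilizer_iff.1 hr
      exact mul_inv_eq_iff_eq_mul.1 h
    haveI hKn : K.Normal := by
      refine ⟨fun x hx g => mem_subgroupOf.2 (mem_centralizer_iff.2 fun s hs => ?_)⟩
      have hs' : (g : G)⁻¹ * s * g ∈ (S : Subgroup G) := by
        have h := (mem_normalizer_iff.mp (inv_mem g.2) s).mp hs
        rwa [inv_inv] at h
      have h := mem_centralizer_iff.1 (mem_subgroupOf.1 hx) _ hs'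
      show s * ((g : G) * (x : G) * (g : G)⁻¹) = (g : G) * (x : G) * (g : G)⁻¹ * s
      calc s * ((g : G) * (x : G) * (g : G)⁻¹)
          = (g : G) * ((g : G)⁻¹ * s * g * (x : G)) * (g : G)⁻¹ := by group
        _ = (g : G) * (x : G) * (g : G)⁻¹ * s := by rw [h]; group
    haveI := Fact.mk (show Nat.Prime 7 by norm_num)
    obtain ⟨q, hq⟩ := exists_prime_orderOf_dvd_card' (G := N ⧸ K) 7 hK7
    obtain ⟨c, rfl⟩ := QuotientGroup.mk_surjective q
    refine ⟨c, c.2, fun h => ?_, ?_⟩
    · rw [(QuotientGroup.eq_one_iff c).2 (mem_subgroupOf.2 h), orderOf_one] at hq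
      norm_num at hq
    · have h : ((c ^ 7 : N) : N ⧸ K) = 1 := by
        rw [QuotientGroup.mk_pow, ← hq, pow_orderOf_eq_one]
      exact mem_subgroupOf.1 ((QuotientGroup.eq_one_iff _).1 h)

end Cfsg.Agent.H48.SylowEight
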