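import Cfsg.Agent.H48.SylowEight.Setting
import Cfsg.Agent.H80.CentTwoAlt.Arith
import Cfsg.Agent.H30.GLTwoThreeCentralizer
import Cfsg.Agent.H45.Galois
import Cfsg.Agent.H26.CharLinear

/-!
# The order of a simple group with one class of involutions and centraliser `C2 × A4` modulo a
normal subgroup of odd order
-/

set_option autoImplicit false
set_option synthInstance.maxSize 4096
set_option linter.unusedSectionVars false
set_option maxHeartbeats 2000000
set_option maxRecDepth 4000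

namespace Cfsg.Agent.H48.SylowEight

open scoped ComplexConjugate
open Cfsg.Agent.H30
open Cfsg.Agent.H80.CentTwoAlt (M A τ cls ofTable Tz gen_Tz pairTable ofAdd_ne cls_inv fst_inv
  cls_eq_zero classInner_ofTable classInner_ofTable_one Coeffs vA rA noncomm)

/-- The weight of a pair of involutions. -/
def weight (m1 m2 : M) : Prop :=
  (m1 * m1 = 1 ∧ m1 ≠ 1 ∧ m1 ≠ τ) ∧ m2 = m1 * τ

theorem product_table : ∀ m1 m2 : M, m1 * m1 = 1 → m1 ≠ 1 → m2 * m2 = 1 → m2 ≠ 1 →
    (m1 * m2).1 ≠ 1 → cls (m1 * m2).2 ≠ 1 →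
      cls (m1 * m2).2 = 0 ∧ m1 ≠ τ ∧ m2 = m1 * τ := by decide +kernel

theorem product_table' : ∀ m1 : M, m1 * m1 = 1 → m1 ≠ 1 → m1 ≠ τ →
    m1 * τ * (m1 * τ) = 1 ∧ m1 * τ ≠ 1 ∧ m1 * (m1 * τ) = τ := by decide +kernel

theorem six_inv : (Finset.univ.filter fun m : M => m * m = 1 ∧ m ≠ 1 ∧ m ≠ τ).card = 6 := by
  decide +kernel

theorem Tz_table (ζ : ℂ) (m : M) (h : m = τ) : ofTable (Tz ζ) m = 8 := by
  subst h
  unfold ofTable
  rw [if_neg (by exact ofAdd_ne), show cls τ.2 = 0 from (cls_eq_zero _).2 rfl]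
  rfl

variable {G : Type*} [Group G] [Fintype G] (S : Setting G)

/-- The number of involutions over an element of the image. -/
noncomputable def Setting.lifts (m : M) : ℕ :=
  Nat.card {a : S.H // S.φ a = m ∧ a * a = 1}

theorem Setting.conj_t_iff {x : G} : IsConj S.t x ↔ x * x = 1 ∧ x ≠ 1 := by
  refine ⟨fun h => ?_, fun h => S.fusion h.1 h.2⟩
  obtain ⟨g, rfl⟩ := isConj_iff.mp h
  refine ⟨?_, fun h => S.t_ne (conj_eq_one_iff.mp h)⟩
  rw [show g * S.t * g⁻¹ * (g * S.t * g⁻¹) = g * (S.t * S.t) * g⁻¹ by group, S.t_mul]; group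

/-- An element of the kernel is not an involution. -/
theorem Setting.inv_map_ne {a : S.H} (ha : a * a = 1) (ha1 : a ≠ 1) : S.φ a ≠ 1 := by
  intro h
  apply ha1
  obtain ⟨j, hj⟩ := S.odd
  have := hj ▸ S.odd_pow (MonoidHom.mem_ker.mpr h)
  rwa [pow_succ, pow_mul, pow_two, ha, one_pow, one_mul] at this

/-- The sum of a table against the numbers of factorisations. -/
theorem Setting.sum_count [Fintype S.H] (ζ : ℂ) {K : ℕ}
    (hK : ∀ m : M, m * m = 1 → m ≠ 1 → m ≠ τ → S.lifts m * S.lifts (m * τ) = K) :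
    ∑ y : S.H, S.onH (Tz ζ) y * (Nat.card {p : G × G //
      IsConj S.t p.1 ∧ IsConj S.t p.2 ∧ p.1 * p.2 = (y : G)} : ℂ) = 48 * (K : ℂ) := by
  classical
  let I : Finset S.H := Finset.univ.filter fun a => a * a = 1 ∧ a ≠ 1
  have hmem : ∀ {a : S.H}, a ∈ I ↔ a * a = 1 ∧ a ≠ 1 := by simp [I]
  have hIs : ∀ {a : S.H}, a ∈ I → IsConj S.t (a : G) := fun {a} ha => by
    refine S.conj_t_iff.2 ⟨?_, fun h => (hmem.1 ha).2 (Subtype.ext h)⟩
    exact congrArg Subtype.val (hmem.1 ha).1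
  have hn : ∀ y : S.H, (y : G) ∈ S.special →
      Nat.card {p : G × G // IsConj S.t p.1 ∧ IsConj S.t p.2 ∧ p.1 * p.2 = (y : G)} =
        ((I ×ˢ I).filter fun q => q.1 * q.2 = y).card := by
    intro y hy
    obtain ⟨k, hk⟩ := hy
    have hyt : ∀ a b : G, a * a = 1 → b * b = 1 → a * b = (y : G) → a ∈ S.H := by
      intro a b ha hb hab
      have hinv : a * (y : G) * a⁻¹ = (y : G)⁻¹ := by
        rw [← hab, mul_inv_rev, inv_eq_of_mul_eq_one_right ha, inv_eq_of_mul_eq_one_right hb,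
          ← mul_assoc, ha, one_mul]
      have h1 : a * S.t * a⁻¹ = S.t := by
        rw [← hk, ← conj_pow, hinv, inv_pow, hk, inv_eq_of_mul_eq_one_right S.t_mul]
      exact Subgroup.mem_centralizer_singleton_iff.mpr (mul_inv_eq_iff_eq_mul.mp h1)
    rw [← Nat.card_eq_finsetCard]
    refine Nat.card_congr
      { toFun := fun p => ?_
        invFun := fun q => ⟨((q.1.1 : G), (q.1.2 : G)), ?_⟩
        left_inv := fun p => ?_
        right_inv := fun q => ?_ }
    · have g1 := S.conj_t_iff.1 p.2.1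
      have g2 := S.conj_t_iff.1 p.2.2.1
      have ha : p.1.1 ∈ S.H := hyt _ _ g1.1 g2.1 p.2.2.2
      have hb : p.1.2 ∈ S.H := by
        have : p.1.1 * (p.1.1 * p.1.2) = p.1.2 := by rw [← mul_assoc, g1.1, one_mul]
        rw [← this, p.2.2.2]; exact mul_mem ha y.2
      refine ⟨(⟨p.1.1, ha⟩, ⟨p.1.2, hb⟩), Finset.mem_filter.2 ⟨Finset.mem_product.2
        ⟨hmem.2 ⟨Subtype.ext g1.1, fun h => g1.2 (congrArg Subtype.val h)⟩,
          hmem.2 ⟨Subtype.ext g2.1, fun h => g2.2 (congrArg Subtype.val h)⟩⟩,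
        Subtype.ext p.2.2.2⟩⟩
    · obtain ⟨h1, h2⟩ := Finset.mem_filter.1 q.2
      obtain ⟨ha, hb⟩ := Finset.mem_product.1 h1
      exact ⟨hIs ha, hIs hb, congrArg Subtype.val h2⟩
    · rfl
    · rfl
  have h1 : ∀ y : S.H, S.onH (Tz ζ) y * (Nat.card {p : G × G //
      IsConj S.t p.1 ∧ IsConj S.t p.2 ∧ p.1 * p.2 = (y : G)} : ℂ) =
      ∑ q ∈ (I ×ˢ I).filter (fun q => q.1 * q.2 = y), ofTable (Tz ζ) (S.φ (q.1 * q.2)) := by
    intro y
    rw [Finset.sum_congr rfl (g := fun _ => S.onH (Tz ζ) y)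
      (fun q hq => by rw [(Finset.mem_filter.1 hq).2]; rfl), Finset.sum_const, nsmul_eq_mul]
    by_cases hy : (y : G) ∈ S.special
    · rw [hn y hy, mul_comm]
    · rw [S.onH_supported (show Tz ζ 1 = 0 from rfl) y hy, zero_mul, mul_zero]
  simp only [h1]
  rw [Finset.sum_fiberwise (I ×ˢ I) (fun q => q.1 * q.2)
    (fun q => ofTable (Tz ζ) (S.φ (q.1 * q.2)))]
  simp only [map_mul]
  have hmaps : ∀ q ∈ I ×ˢ I, (S.φ q.1, S.φ q.2) ∈ (Finset.univ : Finset (M × M)) :=
    fun q _ => Finset.mem_univ _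
  rw [← Finset.sum_fiberwise_of_maps_to hmaps]
  have hfib : ∀ mm : M × M, ∑ q ∈ (I ×ˢ I).filter (fun q => (S.φ q.1, S.φ q.2) = mm),
      ofTable (Tz ζ) (S.φ q.1 * S.φ q.2) =
      if mm.1 * mm.1 = 1 ∧ mm.1 ≠ 1 ∧ mm.1 ≠ τ ∧ mm.2 = mm.1 * τ then 8 * (K : ℂ) else 0 := by
    rintro ⟨m1, m2⟩
    rw [Finset.sum_congr rfl (g := fun _ => ofTable (Tz ζ) (m1 * m2))
      (fun q hq => by
        obtain ⟨r1, r2⟩ := Prod.mk.injEq .. ▸ (Finset.mem_filter.1 hq).2
        rw [r1, r2]), Finset.sum_const, nsmul_eq_mul]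
    split_ifs with hm
    · obtain ⟨e1, e2, e3, e4⟩ := hm
      dsimp only at e1 e2 e3 e4 ⊢
      subst e4
      obtain ⟨f1, f2, f3⟩ := product_table' m1 e1 e2 e3
      rw [Tz_table ζ _ f3, mul_comm (8 : ℂ), ← hK m1 e1 e2 e3]
      congr 1
      rw [Nat.cast_inj, Setting.lifts, Setting.lifts, Nat.card_eq_fintype_card,
        Nat.card_eq_fintype_card, Fintype.card_subtype, Fintype.card_subtype, ← Finset.card_product]
      refine congrArg Finset.card (Finset.ext fun q => ?_)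
      simp only [Finset.mem_filter, Finset.mem_product, hmem, Finset.mem_univ, true_and,
        Prod.mk.injEq]
      constructor
      · rintro ⟨⟨⟨a1, -⟩, b1, -⟩, c1, c2⟩; exact ⟨⟨c1, a1⟩, c2, b1⟩
      · rintro ⟨⟨c1, a1⟩, c2, b1⟩
        refine ⟨⟨⟨a1, fun h => e2 ?_⟩, b1, fun h => f2 ?_⟩, c1, c2⟩
        · rw [← c1, h, map_one]
        · rw [← c2, h, map_one]
    · refine mul_eq_zero.2 (or_iff_not_imp_left.2 fun hne => ?_)
      obtain ⟨q, hq⟩ := Finset.card_pos.1
        (Nat.pos_of_ne_zero fun h => hne (by rw [h, Nat.cast_zero]))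
      simp only [Finset.mem_filter, Finset.mem_product, hmem] at hq
      obtain ⟨⟨⟨a1, a2⟩, b1, b2⟩, hq'⟩ := hq
      rw [Prod.mk.injEq] at hq'
      obtain ⟨rfl, rfl⟩ := hq'
      unfold ofTable
      by_contra hne'
      have g1 : (S.φ q.1 * S.φ q.2).1 ≠ 1 := fun h => hne' (if_pos h)
      rw [if_neg g1] at hne'
      have g2 : cls (S.φ q.1 * S.φ q.2).2 ≠ 1 := fun h => hne' (by rw [h]; rfl)
      have i1 : S.φ q.1 * S.φ q.1 = 1 := by rw [← map_mul, a1, map_one]
      have i2 : S.φ q.2 * S.φ q.2 = 1 := by rw [← map_mul, b1, map_one]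
      obtain ⟨-, g4, g5⟩ := product_table _ _ i1 (S.inv_map_ne a1 a2) i2 (S.inv_map_ne b1 b2) g1 g2
      exact hm ⟨i1, S.inv_map_ne a1 a2, g4, g5⟩
  rw [Finset.sum_congr rfl (fun mm _ => hfib mm), ← Finset.sum_filter, Finset.sum_const,
    nsmul_eq_mul]
  have hcard : (Finset.univ.filter fun mm : M × M =>
      mm.1 * mm.1 = 1 ∧ mm.1 ≠ 1 ∧ mm.1 ≠ τ ∧ mm.2 = mm.1 * τ).card = 6 := by
    rw [← six_inv]
    refine Finset.card_bij' (fun mm _ => mm.1) (fun m _ => (m, m * τ)) ?_ ?_ ?_ ?_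
    · intro mm h
      simp only [Finset.mem_filter, Finset.mem_univ, true_and] at h ⊢
      exact ⟨h.1, h.2.1, h.2.2.1⟩
    · intro m h
      simp only [Finset.mem_filter, Finset.mem_univ, true_and, and_true] at h ⊢
      exact h
    · intro mm h
      simp only [Finset.mem_filter, Finset.mem_univ, true_and] at h
      exact Prod.ext rfl h.2.2.2.symm
    · intro m h; rfl
  rw [hcard]
  push_cast
  ring

/-- Characters constant on the section over the centre. -/
def Setting.Const (χ : Cfsg.IrrCharacter G) : Prop :=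
  ∀ o : S.φ.ker, (χ : G → ℂ) ((S.t' * o.1 : S.H) : G) = (χ : G → ℂ) S.t

/-- The order of the group. -/
theorem Setting.card_eq {G : Type*} [Group G] [Fintype G] (S : Setting G) [IsSimpleGroup G]
    (E : Subgroup G) (hE : Nat.card E = 8) (hE2 : ∀ x ∈ E, x * x = 1) {K : ℕ}
    (hK : ∀ m : M, m * m = 1 → m ≠ 1 → m ≠ τ → S.lifts m * S.lifts (m * τ) = K)
    (hdvd : Nat.card S.φ.ker * K ∣ Nat.card G) :
    Nat.card G = 2376 * (Nat.card S.φ.ker * K) := by
  classical
  haveI := Fintype.ofFinite S.H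
  obtain ⟨P, hP⟩ := H42.exists_isPModular Nat.prime_two
  set κ : ℕ := Nat.card S.φ.ker with hκ
  have hκ0 : (κ : ℂ) ≠ 0 := Nat.cast_ne_zero.2 Nat.card_pos.ne'
  have hH : (Nat.card S.H : ℂ) = 24 * (κ : ℂ) := by rw [S.card_H]; push_cast; rfl
  set ω : ℂ := Complex.exp (2 * Real.pi * Complex.I / (3 : ℕ)) with hωdef
  have hp : IsPrimitiveRoot ω 3 := Complex.isPrimitiveRoot_exp 3 (by norm_num)
  have h3 : ω ^ 3 = 1 := hp.pow_eq_one
  have hsum : 1 + ω + ω ^ 2 = 0 := by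
    have := hp.geom_sum_eq_zero (by norm_num)
    simp only [Finset.sum_range_succ, Finset.sum_range_zero, zero_add, pow_zero, pow_one] at this
    exact this
  have h32 : (ω ^ 2) ^ 3 = 1 := by rw [← pow_mul, mul_comm, pow_mul, h3, one_pow]
  have hcj : conj ω = ω ^ 2 := by
    have h1 : conj ω * ω = 1 := by
      rw [mul_comm, Complex.mul_conj, Complex.normSq_eq_norm_sq,
        Complex.norm_eq_one_of_pow_eq_one h3 (by norm_num)]
      simp
    calc conj ω = conj ω * ω ^ 3 := by rw [h3, mul_one]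
      _ = conj ω * ω * ω ^ 2 := by ring
      _ = _ := by rw [h1, one_mul]
  have v0 : ∀ ζ, Tz ζ 1 = 0 := fun ζ => rfl
  obtain ⟨ma, hma⟩ := H57.gen_exists_coef (S.gen_ind (gen_Tz (one_pow 3)))
  obtain ⟨mb, hmb⟩ := H57.gen_exists_coef (S.gen_ind (gen_Tz h3))
  obtain ⟨mc, hmc⟩ := H57.gen_exists_coef (S.gen_ind (gen_Tz h32))
  have hcoef : ∀ {T : Fin 4 → ℂ} {c : Cfsg.IrrCharacter G → ℤ},
      Cfsg.indFun S.H (S.onH T) = ∑ χ : Cfsg.IrrCharacter G, c χ • (χ : G → ℂ) →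
      ∀ χ : Cfsg.IrrCharacter G,
        (c χ : ℂ) = (Nat.card S.H : ℂ)⁻¹ * ∑ y : S.H, S.onH T y * conj (χ.1 y) := by
    intro T c hc χ
    rw [← H57.inner_coef c χ, ← hc,
      H25.classInner_indFun_left S.H _ _ (H26.irr_isClassFunction χ), Cfsg.classInner]
  have hblock : ∀ χ : Cfsg.IrrCharacter G, χ ∈ Cfsg.principalBlock P G → S.Const χ := by
    intro χ hχ o
    have ht : ((S.t' : S.H) : G) ∈ S.special := ⟨0, by simp⟩
    exact S.section_mul hP hχ ht o.2
  have hout : ∀ {T : Fin 4 → ℂ} {c : Cfsg.IrrCharacter G → ℤ}, T 1 = 0 →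
      Cfsg.indFun S.H (S.onH T) = ∑ χ : Cfsg.IrrCharacter G, c χ • (χ : G → ℂ) →
      ∀ χ, ¬ S.Const χ → c χ = 0 := by
    intro T c hT hc χ hχ
    have h := hcoef hc χ
    rw [S.sum_onH_eq_zero hP (fun h => hχ (hblock χ h)) hT, mul_zero] at h
    exact_mod_cast h
  let ι := {χ : Cfsg.IrrCharacter G // S.Const χ}
  have hres : ∀ {R : Type} [AddCommMonoid R] (F : Cfsg.IrrCharacter G → R),
      (∀ χ, ¬ S.Const χ → F χ = 0) → ∑ χ, F χ = ∑ i : ι, F i.1 := by
    intro R _ F hF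
    rw [← Finset.sum_subtype (Finset.univ.filter fun χ => S.Const χ) (by simp) F,
      Finset.sum_filter_of_ne]
    intro χ _ hne
    by_contra hχ
    exact hne (hF χ hχ)
  have hdot : ∀ {ζ η : ℂ} {c d : Cfsg.IrrCharacter G → ℤ},
      Cfsg.indFun S.H (S.onH (Tz ζ)) = ∑ χ : Cfsg.IrrCharacter G, c χ • (χ : G → ℂ) →
      Cfsg.indFun S.H (S.onH (Tz η)) = ∑ χ : Cfsg.IrrCharacter G, d χ • (χ : G → ℂ) →
      ∀ k : ℤ, (24 : ℂ)⁻¹ * (Tz ζ 0 * conj (Tz η 0) + 3 * (Tz ζ 1 * conj (Tz η 1)) +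
        4 * (Tz ζ 2 * conj (Tz η 2)) + 4 * (Tz ζ 3 * conj (Tz η 3))) = (k : ℂ) →
      ∑ i : ι, c i.1 * d i.1 = k := by
    intro ζ η c d hc hd k hk
    have hout' := hout (v0 ζ) hc
    rw [← classInner_ofTable, ← S.classInner_onH, ← H38.classInner_indFun_ti S.H S.special
      S.special_ti _ _ (S.onH_isClassFunction _) (S.onH_supported (v0 ζ)) (S.onH_supported (v0 η)),
      hc, hd, H26.classInner_sum_right] at hk
    simp only [H57.classInner_zsmul_right, H57.inner_coef, ← Int.cast_mul, ← Int.cast_sum] at hk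
    have hk' : ∑ χ, d χ * c χ = k := by exact_mod_cast hk
    rw [← hk', ← hres (fun χ => c χ * d χ) fun χ h => by rw [hout' χ h, zero_mul]]
    exact Finset.sum_congr rfl fun χ _ => mul_comm _ _
  set one := H26.oneIrr G with hone
  have honeC : S.Const one := fun o => rfl
  let o : ι := ⟨one, honeC⟩
  have hco : ∀ {T : Fin 4 → ℂ} {c : Cfsg.IrrCharacter G → ℤ},
      Cfsg.indFun S.H (S.onH T) = ∑ χ : Cfsg.IrrCharacter G, c χ • (χ : G → ℂ) →
      ∀ k : ℤ, (24 : ℂ)⁻¹ * (T 0 + 3 * T 1 + 4 * T 2 + 4 * T 3) = (k : ℂ) → c one = k := by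
    intro T c hc k hk
    have h := hcoef hc one
    have e : ∑ y : S.H, S.onH T y * conj ((one : G → ℂ) y) =
        (κ : ℂ) * ∑ m : M, ofTable T m := by
      rw [← S.sum_comp]
      exact Finset.sum_congr rfl fun y _ => by
        rw [show (one : G → ℂ) (y : G) = 1 from rfl, map_one, mul_one]; rfl
    rw [e, H80.CentTwoAlt.sum_ofTable, hH] at h
    have h' : (c one : ℂ) = (k : ℂ) := by
      rw [h, ← hk]; field_simp
    exact_mod_cast h'
  have daa := hdot hma hma 4 (by simp [Tz, map_ofNat]; norm_num)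
  have dbb := hdot hmb hmb 4 (by
    simp [Tz, map_ofNat, hcj]
    linear_combination ((16 : ℂ) / 24 * (ω ^ 3 + 2)) * h3)
  have dab := hdot hma hmb 2 (by
    simp [Tz, map_ofNat, hcj]
    linear_combination ((16 : ℂ) / 24 * ω) * h3 + (16 : ℂ) / 24 * hsum)
  have dbc := hdot hmb hmc 2 (by
    simp [Tz, map_ofNat, hcj]
    linear_combination ((16 : ℂ) / 24 * (ω ^ 2 + ω * (ω ^ 6 + ω ^ 3 + 1))) * h3 +
      (16 : ℂ) / 24 * hsum)
  have oa := hco hma 1 (by simp [Tz]; norm_num)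
  have ob := hco hmb 0 (by simp [Tz]; linear_combination 8 * hsum)
  choose d hd0 hd using fun χ : Cfsg.IrrCharacter G => H57.irr_degree χ.2
  set v : Cfsg.IrrCharacter G → ℤ := fun χ => ma χ + mb χ + mc χ with hv
  have hval : ∀ χ : Cfsg.IrrCharacter G, S.Const χ → χ.1 S.t = (v χ : ℂ) := by
    intro χ hχ
    have hf : ∀ y : S.H, S.onH (Tz 1) y + S.onH (Tz ω) y + S.onH (Tz (ω ^ 2)) y =
        if S.φ y = τ then 24 else 0 := by
      intro y
      have key : ∀ c : Fin 4, Tz 1 c + Tz ω c + Tz (ω ^ 2) c = if c = 0 then 24 else 0 := by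
        intro c
        fin_cases c <;> simp [Tz]
        · norm_num
        · linear_combination 2 * hsum
        · linear_combination 2 * hsum + 2 * ω * h3
      have hiff : S.φ y = τ ↔ ((S.φ y).1 ≠ 1 ∧ cls (S.φ y).2 = 0) := by
        rw [cls_eq_zero]
        constructor
        · intro h; rw [h]; exact ⟨ofAdd_ne, rfl⟩
        · rintro ⟨h, h'⟩
          have two : ∀ a : Multiplicative (ZMod 2), a ≠ 1 → a = Multiplicative.ofAdd 1 := by decide
          exact Prod.ext (two _ h) h'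
      by_cases h1 : (S.φ y).1 = 1
      · rw [if_neg fun h => (hiff.mp h).1 h1]
        simp [Setting.onH, ofTable, h1]
      · simp only [Setting.onH, ofTable, if_neg h1, key]
        by_cases h2 : cls (S.φ y).2 = 0
        · rw [if_pos h2, if_pos (hiff.mpr ⟨h1, h2⟩)]
        · rw [if_neg h2, if_neg fun h => h2 (hiff.mp h).2]
    have h : (v χ : ℂ) = (Nat.card S.H : ℂ)⁻¹ * ∑ y : S.H, (S.onH (Tz 1) y + S.onH (Tz ω) y +
        S.onH (Tz (ω ^ 2)) y) * conj (χ.1 y) := by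
      rw [hv]
      push_cast
      rw [hcoef hma, hcoef hmb, hcoef hmc]
      simp only [add_mul, Finset.sum_add_distrib]
      ring
    have hterm : ∀ y : S.H, (if S.φ y = τ then (24 : ℂ) else 0) * conj (χ.1 y) =
        (if S.φ y = τ then (24 : ℂ) else 0) * conj (χ.1 S.t) := by
      intro y
      split_ifs with hy
      · have hmem : S.t' * y ∈ S.φ.ker := by
          rw [MonoidHom.mem_ker, map_mul, S.map_t, hy]; exact H80.CentTwoAlt.tau_ne.2
        have := hχ ⟨_, hmem⟩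
        rw [show S.t' * (S.t' * y) = y by
          rw [← mul_assoc, show S.t' * S.t' = 1 from Subtype.ext S.t_mul, one_mul]] at this
        rw [this]
      · simp
    simp only [hf, hterm, ← Finset.sum_mul] at h
    rw [S.sum_comp (fun m => if m = τ then (24 : ℂ) else 0), Finset.sum_ite_eq' Finset.univ τ,
      if_pos (Finset.mem_univ _), hH] at h
    have h2 : (v χ : ℂ) = conj (χ.1 S.t) := by
      rw [h, ← hκ]; field_simp
    have h' := congrArg conj h2
    rw [map_intCast, Complex.conj_conj] at h'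
    exact h'.symm
  -- complex conjugation
  set k : ℕ := Nat.card G - 1 with hk'
  have hpos : 0 < Nat.card G := Nat.card_pos
  have hk : k.Coprime (Nat.card G) := by
    have : (k + 1).Coprime k := (Nat.coprime_self_add_left).mpr (Nat.coprime_one_left k)
    rw [show k + 1 = Nat.card G by omega] at this
    exact this.symm
  have hinv : ∀ g : G, g ^ k = g⁻¹ := fun g => by
    refine eq_inv_of_mul_eq_one_left ?_
    rw [← pow_succ, show k + 1 = Nat.card G by omega, pow_card_eq_one']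
  set σ : Cfsg.IrrCharacter G → Cfsg.IrrCharacter G := H45.galIrr hk with hσ
  have σσ : ∀ χ, σ (σ χ) = χ := fun χ => Subtype.ext (funext fun g => by
    show χ.1 ((g ^ k) ^ k) = χ.1 g
    rw [hinv, hinv, inv_inv])
  have σC : ∀ χ, S.Const χ → S.Const (σ χ) := by
    intro χ hχ q
    show χ.1 ((((S.t' * q.1 : S.H) : G)) ^ k) = χ.1 (S.t ^ k)
    rw [hinv, hinv, inv_eq_of_mul_eq_one_right S.t_mul]
    have h := hχ q⁻¹
    rw [← h]
    refine congrArg χ.1 ?_
    have hc : Commute S.t ((q.1 : S.H) : G) :=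
      (Subgroup.mem_centralizer_singleton_iff.mp q.1.2).symm
    show (S.t * ((q.1 : S.H) : G))⁻¹ = S.t * ((q.1 : S.H) : G)⁻¹
    rw [mul_inv_rev, inv_eq_of_mul_eq_one_right S.t_mul]
    exact hc.inv_right.eq.symm
  let σ' : ι → ι := fun i => ⟨σ i.1, σC i.1 i.2⟩
  have hbij : Function.Bijective fun y : S.H => y ^ k :=
    H45.powCoprime_bijective (hk.coprime_dvd_right (Subgroup.card_subgroup_dvd_card S.H))
  have htwist : ∀ (ζ η : ℂ), ζ ^ 2 = η → η ^ 2 = ζ →
      ∀ {c : Cfsg.IrrCharacter G → ℤ},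
      Cfsg.indFun S.H (S.onH (Tz ζ)) = ∑ χ : Cfsg.IrrCharacter G, c χ • (χ : G → ℂ) →
      ∀ χ, (c (σ χ) : ℂ) =
        (Nat.card S.H : ℂ)⁻¹ * ∑ y : S.H, S.onH (Tz η) y * conj (χ.1 y) := by
    intro ζ η h1 h2 c hc χ
    rw [hcoef hc]
    congr 1
    refine Fintype.sum_bijective _ hbij _ _ fun y => ?_
    have e1 : y ^ k = y⁻¹ := Subtype.ext (by simpa using hinv (y : G))
    have e2 : S.onH (Tz η) (y ^ k) = S.onH (Tz ζ) y := by
      unfold Setting.onH ofTable
      rw [e1, map_inv, Prod.fst_inv, Prod.snd_inv, fst_inv, cls_inv]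
      congr 1
      generalize cls (S.φ y).2 = c
      fin_cases c <;> simp [Tz, h1, h2]
    rw [e2]
    rfl
  have sa : ∀ χ, ma (σ χ) = ma χ := fun χ => by
    have h := htwist 1 1 (one_pow 2) (one_pow 2) hma χ
    rw [← hcoef hma] at h
    exact_mod_cast h
  have sb : ∀ χ, mb (σ χ) = mc χ := fun χ => by
    have h := htwist ω (ω ^ 2) rfl (by rw [← pow_mul]; linear_combination ω * h3) hmb χ
    rw [← hcoef hmc] at h
    exact_mod_cast h
  have sd : ∀ χ, (d (σ χ) : ℤ) = d χ := fun χ => by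
    have h := hd (σ χ)
    rw [hσ, show (H45.galIrr hk χ).1 1 = χ.1 (1 ^ k) from rfl, one_pow, hd χ] at h
    exact_mod_cast h.symm
  have hdegs : ∀ {ζ : ℂ} {c : Cfsg.IrrCharacter G → ℤ},
      Cfsg.indFun S.H (S.onH (Tz ζ)) = ∑ χ : Cfsg.IrrCharacter G, c χ • (χ : G → ℂ) →
      ∑ i : ι, c i.1 * (d i.1 : ℤ) = 0 := by
    intro ζ c hc
    rw [← hres (fun χ => c χ * (d χ : ℤ)) fun χ h => by rw [hout (v0 ζ) hc χ h, zero_mul]]
    have h := congrFun hc 1
    rw [H25.indFun_one, show S.onH (Tz ζ) 1 = 0 by simp [Setting.onH, ofTable], mul_zero,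
      Finset.sum_apply] at h
    simp only [Pi.smul_apply, zsmul_eq_mul, hd] at h
    exact_mod_cast h.symm
  -- counting
  let n : G → ℕ := fun g => Nat.card {p : G × G // IsConj S.t p.1 ∧ IsConj S.t p.2 ∧ p.1 * p.2 = g}
  have hcount : ∀ {ζ : ℂ} {c : Cfsg.IrrCharacter G → ℤ},
      Cfsg.indFun S.H (S.onH (Tz ζ)) = ∑ χ : Cfsg.IrrCharacter G, c χ • (χ : G → ℂ) →
      (Nat.card G : ℚ) * ∑ i : ι, (c i.1 : ℚ) * ((v i.1 : ℤ) : ℚ) ^ 2 / ((d i.1 : ℤ) : ℚ) =
        1152 * ((κ : ℚ) * (K : ℚ)) := by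
    intro ζ c hc
    have hG : (Nat.card G : ℂ) ≠ 0 := Nat.cast_ne_zero.2 Nat.card_pos.ne'
    have hH0 : (Nat.card S.H : ℂ) ≠ 0 := Nat.cast_ne_zero.2 Nat.card_pos.ne'
    have hcf : ∀ g : G, (n g : ℂ) * ((Nat.card S.H : ℂ) * Nat.card S.H) =
        (Nat.card G : ℂ) * ∑ χ : Cfsg.IrrCharacter G,
          χ.1 S.t * χ.1 S.t * conj (χ.1 g) / χ.1 1 :=
      fun g => GLTwoThree.count_formula S.t S.t g
    have hnf : Cfsg.IsClassFunction G fun g => (n g : ℂ) := by
      intro g x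
      have h1 := hcf (x * g * x⁻¹)
      simp only [H26.irr_conj] at h1
      rw [← hcf g] at h1
      exact mul_right_cancel₀ (mul_ne_zero hH0 hH0) h1
    have hfr := H25.classInner_indFun_left S.H (S.onH (Tz ζ)) (fun g => (n g : ℂ)) hnf
    have hM : ∑ y : S.H, S.onH (Tz ζ) y * conj ((n y : ℕ) : ℂ) = 48 * (K : ℂ) := by
      rw [← S.sum_count ζ hK]
      exact Finset.sum_congr rfl fun y _ => by rw [map_natCast]
    unfold Cfsg.classInner at hfr
    rw [hM] at hfr
    have hexp : ∑ g : G, Cfsg.indFun S.H (S.onH (Tz ζ)) g * conj ((n g : ℕ) : ℂ) *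
        ((Nat.card S.H : ℂ) * Nat.card S.H) =
        (Nat.card G : ℂ) * ((Nat.card G : ℂ) *
          ∑ χ, (c χ : ℂ) * (χ.1 S.t * χ.1 S.t) / χ.1 1) := by
      calc _ = ∑ g : G, Cfsg.indFun S.H (S.onH (Tz ζ)) g * ((Nat.card G : ℂ) *
            ∑ χ : Cfsg.IrrCharacter G, χ.1 S.t * χ.1 S.t * conj (χ.1 g) / χ.1 1) :=
            Finset.sum_congr rfl fun g _ => by rw [map_natCast, mul_assoc, hcf]
        _ = (Nat.card G : ℂ) * ∑ χ : Cfsg.IrrCharacter G, χ.1 S.t * χ.1 S.t / χ.1 1 *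
            ∑ g : G, Cfsg.indFun S.H (S.onH (Tz ζ)) g * conj (χ.1 g) := by
            simp only [Finset.mul_sum]
            rw [Finset.sum_comm]
            exact Finset.sum_congr rfl fun χ _ => Finset.sum_congr rfl fun g _ => by ring
        _ = _ := by
            congr 1
            rw [Finset.mul_sum]
            refine Finset.sum_congr rfl fun χ _ => ?_
            have h := H57.inner_coef c χ
            rw [← hc, Cfsg.classInner] at h
            rw [← h]
            field_simp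
    rw [← Finset.sum_mul] at hexp
    field_simp at hfr
    rw [hH] at hfr hexp
    have h3 : (Nat.card G : ℂ) * ∑ χ, (c χ : ℂ) * (χ.1 S.t * χ.1 S.t) / χ.1 1 =
        1152 * ((κ : ℂ) * (K : ℂ)) := by
      apply mul_left_cancel₀ hG
      linear_combination (24 * (κ : ℂ)) * hfr - hexp
    rw [hres (fun χ => (c χ : ℂ) * (χ.1 S.t * χ.1 S.t) / χ.1 1) fun χ h => by
      rw [hout (v0 ζ) hc χ h]; simp] at h3
    simp only [hval _ (Subtype.prop _)] at h3
    have h4 : (((Nat.card G : ℚ) * ∑ i : ι, (c i.1 : ℚ) * ((v i.1 : ℤ) : ℚ) ^ 2 /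
        ((d i.1 : ℤ) : ℚ) : ℚ) : ℂ) = ((1152 * ((κ : ℚ) * (K : ℚ)) : ℚ) : ℂ) := by
      push_cast
      rw [← h3]
      simp only [hd, pow_two]
    exact Rat.cast_injective h4
  have hdo : d one = 1 := by
    have h := hd one
    rw [show one.1 1 = (1 : ℂ) from rfl] at h
    exact_mod_cast h.symm
  have hmod : ∀ i : ι, ((d i.1 : ℤ) - v i.1) % 8 = 0 := by
    rintro ⟨χ, hχ⟩
    haveI := Fintype.ofFinite E
    obtain ⟨z, hz⟩ := H57.gen_inner_int
      (H57.gen_of_char (H26.isCharacter_comp (H26.irr_isCharacter χ) E.subtype))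
      (H57.gen_of_irr (H26.oneIrr E).2)
    rw [Cfsg.classInner, hE] at hz
    simp only [H26.oneIrr_val, map_one, mul_one, Function.comp_apply, Subgroup.coe_subtype] at hz
    rw [← Finset.add_sum_erase _ _ (Finset.mem_univ (1 : E)),
      Finset.sum_congr rfl (g := fun _ => (v χ : ℂ)) (fun x hx => by
        rw [← H26.irr_eq_of_isConj χ (S.fusion (hE2 x x.2)
          fun h => (Finset.mem_erase.mp hx).1 (Subtype.ext h)), hval χ hχ]),
      Finset.sum_const, Finset.card_erase_of_mem (Finset.mem_univ _), Finset.card_univ,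
      ← Nat.card_eq_fintype_card, hE, Subgroup.coe_one, hd, nsmul_eq_mul] at hz
    have h8 : ((d χ : ℤ) : ℂ) + ((7 * v χ : ℤ) : ℂ) = ((8 * z : ℤ) : ℂ) := by
      push_cast
      norm_num at hz
      linear_combination 8 * hz
    have h8' : (d χ : ℤ) + 7 * v χ = 8 * z := by exact_mod_cast h8
    show ((d χ : ℤ) - v χ) % 8 = 0
    omega
  have hlin : ∀ i : ι, i ≠ o → (d i.1 : ℤ) ≠ 1 := by
    rintro ⟨χ, hC⟩ hne h1
    have hχ : χ ≠ one := fun h => hne (Subtype.ext h)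
    obtain ⟨f, hf⟩ := H26.exists_hom_of_isCharacter_one (H26.irr_isCharacter χ)
      (by rw [hd, show d χ = 1 by exact_mod_cast h1, Nat.cast_one])
    rcases (inferInstance : f.ker.Normal).eq_bot_or_eq_top with hb | hb
    · have hinj : Function.Injective f := (MonoidHom.ker_eq_bot_iff f).mp hb
      apply noncomm
      obtain ⟨a, ha⟩ := S.surj (1, vA)
      obtain ⟨b, hb'⟩ := S.surj (1, rA)
      have hab : a * b = b * a :=
        Subtype.ext (hinj (by rw [Subgroup.coe_mul, Subgroup.coe_mul, map_mul, map_mul, mul_comm]))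
      rw [← ha, ← hb', ← map_mul, ← map_mul, hab]
    · refine hχ (Subtype.ext (funext fun g => ?_))
      rw [← hf g, show f g = 1 from (MonoidHom.mem_ker).mp (hb ▸ Subgroup.mem_top g)]
      rfl
  have H : Coeffs o σ' (fun i => ma i.1) (fun i => mb i.1) (fun i => mc i.1)
      (fun i => (d i.1 : ℤ)) :=
    { inv := fun i => Subtype.ext (σσ i.1), sa := fun i => sa i.1, sb := fun i => sb i.1,
      sd := fun i => sd i.1
      dpos := fun i => by exact_mod_cast hd0 i.1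
      done := by exact_mod_cast hdo
      lin := hlin, ao := oa, bo := ob
      aa := daa, bb := dbb, ab := dab, bc := dbc
      da := hdegs hma, db := hdegs hmb
      mod8 := hmod }
  obtain ⟨m, hm⟩ := hdvd
  have hκK : ((κ : ℚ) * (K : ℚ)) ≠ 0 := by
    intro h
    have h0 : κ * K = 0 := by exact_mod_cast h
    rw [h0, zero_mul] at hm
    exact hpos.ne' hm
  have hscale : ∀ {x : ℚ}, (Nat.card G : ℚ) * x = 1152 * ((κ : ℚ) * (K : ℚ)) →
      (m : ℚ) * x = 1152 := by
    intro x hx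
    rw [hm] at hx
    push_cast at hx
    apply mul_left_cancel₀ hκK
    linear_combination hx
  have := H.order (G := m) (hscale (hcount hma)) (hscale (hcount hmb))
  rw [hm, this, mul_comm]

end Cfsg.Agent.H48.SylowEight
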