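import Cfsg.Agent.H80.CentTwoAlt.Chars
import Cfsg.Agent.H77.SolvableCore
import Cfsg.Agent.H19.Cores
import Cfsg.Prelude.Def_Transfer
import Mathlib.GroupTheory.Transfer
import Mathlib.GroupTheory.SpecificGroups.Alternating
import Mathlib.GroupTheory.Perm.Cycle.Type
import Mathlib.GroupTheory.IndexNormal

/-!
# The centralizer of an involution modulo its odd core

If an elementary abelian subgroup of order eight is a Sylow 2-subgroup of `G`, `t` is a nontrivial
element of it with solvable centralizer, and some element normalizing it centralizes `t` but not the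
whole of it, then `C(t)` modulo its odd core is `C2 × A4`.
-/

set_option autoImplicit false

namespace Cfsg.Agent.H48.SylowEight

open Subgroup

open Cfsg.Agent.H80.CentTwoAlt (M τ)

section Abstract

variable {Q : Type*} [Group Q] [Finite Q]

omit [Finite Q] in
/-- In an elementary abelian 2-group a nontrivial element is detected by a map to `C2`. -/
theorem exists_functional [Finite Q] {T : Subgroup Q} (hc : ∀ a ∈ T, ∀ b ∈ T, a * b = b * a)
    (h2 : ∀ a ∈ T, a * a = 1) {z : Q} (hz : z ∈ T) (hz1 : z ≠ 1) :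
    ∃ ϕ : ↥T →* Multiplicative (ZMod 2), ϕ ⟨z, hz⟩ = Multiplicative.ofAdd 1 := by
  classical
  obtain ⟨U, -, hU⟩ := Finite.exists_le_maximal (p := fun U : Subgroup Q => U ≤ T ∧ z ∉ U)
    (a := ⊥) ⟨bot_le, fun h => hz1 (mem_bot.1 h)⟩
  obtain ⟨hUT, hzU⟩ := hU.prop
  have hdich : ∀ a ∈ T, a ∉ U → a * z ∈ U := by
    intro a ha haU
    let V : Subgroup Q :=
      { carrier := {v | v ∈ U ∨ (v ∈ T ∧ v * a ∈ U)}
        one_mem' := Or.inl (one_mem U)
        mul_mem' := by
          rintro x y (hx | ⟨hx, hxa⟩) (hy | ⟨hy, hya⟩)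
          · exact Or.inl (mul_mem hx hy)
          · exact Or.inr ⟨mul_mem (hUT hx) hy, by rw [mul_assoc]; exact mul_mem hx hya⟩
          · refine Or.inr ⟨mul_mem hx (hUT hy), ?_⟩
            rw [mul_assoc, hc y (hUT hy) a ha, ← mul_assoc]
            exact mul_mem hxa hy
          · refine Or.inl ?_
            have e : x * y = x * a * (y * a) := by
              rw [hc y hy a ha, mul_assoc, ← mul_assoc a a y, h2 a ha, one_mul]
            rw [e]
            exact mul_mem hxa hya
        inv_mem' := by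
          rintro x (hx | ⟨hx, hxa⟩)
          · exact Or.inl (inv_mem hx)
          · refine Or.inr ⟨inv_mem hx, ?_⟩
            rw [inv_eq_of_mul_eq_one_right (h2 x hx)]
            exact hxa }
    have hUV : U ≤ V := fun v hv => Or.inl hv
    have hzV : z ∈ V := by
      by_contra hzV
      have hVT : V ≤ T := by
        rintro v (hv | hv)
        · exact hUT hv
        · exact hv.1
      exact haU (hU.2 ⟨hVT, hzV⟩ hUV (Or.inr ⟨ha, by rw [h2 a ha]; exact one_mem U⟩))
    rcases hzV with h | ⟨-, h⟩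
    · exact absurd h hzU
    · rwa [hc a ha z hz]
  refine ⟨MonoidHom.mk' (fun a : T => if (a : Q) ∈ U then 1 else Multiplicative.ofAdd 1) ?_,
    if_neg hzU⟩
  intro a b
  show (if ((a * b : T) : Q) ∈ U then _ else _) = _
  rw [Subgroup.coe_mul]
  have hCC : Multiplicative.ofAdd (1 : ZMod 2) * Multiplicative.ofAdd 1 = 1 := by decide
  by_cases ha : (a : Q) ∈ U <;> by_cases hb : (b : Q) ∈ U
  · rw [if_pos (mul_mem ha hb), if_pos ha, if_pos hb, one_mul]
  · rw [if_neg (fun h => hb ((Subgroup.mul_mem_cancel_left U ha).1 h)), if_pos ha, if_neg hb,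
      one_mul]
  · rw [if_neg (fun h => ha ((Subgroup.mul_mem_cancel_right U hb).1 h)), if_neg ha, if_pos hb,
      mul_one]
  · have e : (a : Q) * b = (a : Q) * z * ((b : Q) * z) := by
      rw [hc _ b.2 z hz, mul_assoc, ← mul_assoc z z, h2 z hz, one_mul]
    rw [if_pos (e ▸ mul_mem (hdich _ a.2 ha) (hdich _ b.2 hb)), if_neg ha, if_neg hb, hCC]

/-- The abstract quotient: a solvable group with trivial odd core whose Sylow 2-subgroup is
elementary abelian of order eight, with a central involution and an element normalizing but not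
centralizing the Sylow 2-subgroup. -/
theorem exists_equiv [Group.IsSolvable Q] (hO : Cfsg.pPrimeCore 2 Q = ⊥) {T : Subgroup Q}
    (h8 : Nat.card T = 8) (hodd : Odd T.index) (hc : ∀ a ∈ T, ∀ b ∈ T, a * b = b * a)
    (h2 : ∀ a ∈ T, a * a = 1) {z : Q} (hz : z ∈ T) (hz1 : z ≠ 1) (hzc : ∀ q : Q, q * z = z * q)
    (hr : ∃ r : Q, (∀ a ∈ T, r * a * r⁻¹ ∈ T) ∧ ∃ a ∈ T, r * a ≠ a * r) :
    ∃ φ : Q ≃* M, φ z = τ := by
  classical
  haveI : Fact (Nat.Prime 2) := ⟨Nat.prime_two⟩
  -- `T` is the 2-core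
  haveI := H19.pCore_normal 2 Q
  have hTp : IsPGroup 2 T := IsPGroup.of_card (n := 3) (by rw [h8]; norm_num)
  have hndvd : ¬ 2 ∣ T.index := fun h => (Nat.not_even_iff_odd.2 hodd) (even_iff_two_dvd.2 h)
  have hPT : ((hTp.toSylow hndvd : Sylow 2 Q) : Subgroup Q) = T := rfl
  have hOT : Cfsg.pCore 2 Q ≤ T := hPT ▸ H19.pCore_le_sylow _
  have hTC : T ≤ centralizer (Cfsg.pCore 2 Q : Set Q) :=
    fun a ha => mem_centralizer_iff.2 fun b hb => hc b (hOT hb) a ha
  have hTeq : T = Cfsg.pCore 2 Q :=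
    le_antisymm (hTC.trans (H77.centralizer_pCore_le 2 hO)) hOT
  haveI hTn : T.Normal := hTeq ▸ H19.pCore_normal 2 Q
  have hself : ∀ q : Q, (∀ a ∈ T, q * a = a * q) → q ∈ T := fun q hq =>
    hTeq ▸ H77.centralizer_pCore_le 2 hO
      (mem_centralizer_iff.2 fun b hb => (hq b (hTeq ▸ hb)).symm)
  have hQcard : Nat.card Q = 8 * T.index := by rw [← h8, card_mul_index]
  have hsq : ∀ q : Q, q * q ∈ T → q ∈ T := by
    intro q hq
    have h2q : orderOf (q : Q ⧸ T) ∣ 2 := orderOf_dvd_of_pow_eq_one (by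
      rw [pow_two, ← QuotientGroup.mk_mul, QuotientGroup.eq_one_iff]; exact hq)
    rcases (Nat.dvd_prime Nat.prime_two).1 h2q with h | h
    · exact (QuotientGroup.eq_one_iff q).1 (orderOf_eq_one_iff.1 h)
    · exact absurd (h ▸ (orderOf_dvd_natCard (q : Q ⧸ T))) hndvd
  -- the subgroup generated by `z`
  set D : Subgroup Q := zpowers z with hD
  have hzo : orderOf z = 2 := orderOf_eq_prime (by rw [pow_two]; exact h2 z hz) hz1
  have hDmem : ∀ d ∈ D, d = 1 ∨ d = z := by
    rintro d ⟨i, rfl⟩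
    show z ^ i = 1 ∨ z ^ i = z
    rw [zpow_eq_zpow_emod i (n := 2) (show z ^ (2 : ℤ) = 1 by
      rw [show (2 : ℤ) = ((2 : ℕ) : ℤ) from rfl, zpow_natCast, pow_two]; exact h2 z hz)]
    rcases Int.emod_two_eq_zero_or_one i with h | h <;> rw [h]
    · exact Or.inl (zpow_zero z)
    · exact Or.inr (zpow_one z)
  haveI hDn : D.Normal := ⟨fun d hd q => by
    rcases hDmem d hd with rfl | rfl
    · rw [mul_one, mul_inv_cancel]; exact one_mem _
    · rw [hzc, mul_inv_cancel_right]; exact mem_zpowers _⟩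
  have hkey : ∀ q : Q, (∀ a ∈ T, q * a * q⁻¹ * a⁻¹ ∈ D) → q ∈ T := by
    intro q hq
    refine hsq q (hself _ fun a ha => ?_)
    have hqa : q * a * q⁻¹ = a ∨ q * a * q⁻¹ = z * a := by
      rcases hDmem _ (hq a ha) with h | h
      · exact Or.inl (mul_inv_eq_one.1 h)
      · exact Or.inr (mul_inv_eq_iff_eq_mul.1 h)
    have hfix : q * (q * a * q⁻¹) * q⁻¹ = a := by
      rcases hqa with h | h
      · rw [h, h]
      · rw [h, ← mul_assoc q z a, hzc q]
        calc z * q * a * q⁻¹ = z * (q * a * q⁻¹) := by simp only [mul_assoc]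
          _ = a := by rw [h, ← mul_assoc, h2 z hz, one_mul]
    calc q * q * a = q * (q * a * q⁻¹) * q⁻¹ * (q * q) := by group
      _ = a * (q * q) := by rw [hfix]
  -- the order of the group
  have hindex : T.index = 3 := by
    set Tb := T.map (QuotientGroup.mk' D) with hTb
    haveI : Tb.Normal := Normal.map hTn _ (QuotientGroup.mk'_surjective D)
    have hTbcard : Nat.card Tb = 4 := by
      have hDle : D ≤ T := zpowers_le.2 hz
      have h1 : D.relIndex T = Nat.card Tb := by
        rw [hTb]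
        have := Subgroup.card_map_dvd T (QuotientGroup.mk' D)
        have e := Subgroup.relIndex_ker (f := QuotientGroup.mk' D) (K := T)
        rwa [QuotientGroup.ker_mk'] at e
      have h2' := relIndex_mul_relIndex (⊥ : Subgroup Q) D T bot_le hDle
      rw [relIndex_bot_left, relIndex_bot_left, h8, h1, show Nat.card D = 2 from (Nat.card_zpowers z).trans hzo] at h2'
      omega
    let f : Q →* Equiv.Perm Tb :=
      (MulAut.toPerm ↥Tb).comp ((MulAut.conjNormal (H := Tb)).comp (QuotientGroup.mk' D))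
    have hfker : ∀ q : Q, q ∈ f.ker ↔ ∀ a ∈ T, q * a * q⁻¹ * a⁻¹ ∈ D := by
      intro q
      rw [MonoidHom.mem_ker, Equiv.ext_iff]
      constructor
      · intro h a ha
        have h1 : (QuotientGroup.mk' D q) * QuotientGroup.mk' D a * (QuotientGroup.mk' D q)⁻¹ =
            QuotientGroup.mk' D a :=
          congrArg Subtype.val (h ⟨QuotientGroup.mk' D a, mem_map_of_mem _ ha⟩)
        rw [← QuotientGroup.ker_mk' D, MonoidHom.mem_ker, map_mul, map_mul, map_mul, map_inv,
          map_inv, h1, mul_inv_cancel]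
      · rintro h ⟨_, a, ha, rfl⟩
        refine Subtype.ext ?_
        show (QuotientGroup.mk' D q) * QuotientGroup.mk' D a * (QuotientGroup.mk' D q)⁻¹ =
            QuotientGroup.mk' D a
        have h1 := h a ha
        rw [← QuotientGroup.ker_mk' D, MonoidHom.mem_ker, map_mul, map_mul, map_mul, map_inv,
          map_inv] at h1
        exact mul_inv_eq_one.1 h1
    have hker : f.ker = T := by
      ext q
      rw [hfker]
      refine ⟨hkey q, fun hq a ha => ?_⟩
      rw [hc q hq a ha, mul_inv_cancel_right, mul_inv_cancel]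
      exact one_mem _
    have hdvd : T.index ∣ 24 := by
      rw [← hker, index_ker]
      refine (Subgroup.card_subgroup_dvd_card _).trans (dvd_of_eq ?_)
      rw [Nat.card_perm, hTbcard]
      rfl
    have hne : T.index ≠ 1 := by
      intro h
      obtain ⟨r, -, a, ha, hra⟩ := hr
      have hrT : r ∈ T := by rw [index_eq_one.1 h]; exact mem_top r
      exact hra (hc r hrT a ha)
    have hle : T.index ≤ 24 := Nat.le_of_dvd (by norm_num) hdvd
    rw [Nat.odd_iff] at hodd
    have key : ∀ n ≤ 24, n % 2 = 1 → n ∣ 24 → n ≠ 1 → n = 3 := by decide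
    exact key _ hle hodd hdvd hne
  have h24 : Nat.card Q = 24 := by rw [hQcard, hindex]
  -- an element of order three
  haveI : Fact (Nat.Prime 3) := ⟨Nat.prime_three⟩
  obtain ⟨x, hx⟩ := exists_prime_orderOf_dvd_card' (G := Q) 3 (by rw [h24]; norm_num)
  have hxT : ∀ i : ℕ, x ^ i ∈ T → x ^ i = 1 := by
    intro i hi
    have e3 : (x ^ i) ^ 3 = 1 := by
      rw [← pow_mul, mul_comm, pow_mul, ← hx, pow_orderOf_eq_one, one_pow]
    rwa [pow_succ, pow_two, h2 _ hi, one_mul] at e3
  have hxz : Commute z x := (hzc x).symm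
  set w := z * x with hw
  have hwo : orderOf w = 6 := by
    rw [hw, hxz.orderOf_mul_eq_mul_orderOf_of_coprime (by rw [hzo, hx]; norm_num), hzo, hx]
  set X := zpowers w with hX
  have hXidx : X.index = 4 := by
    have := X.card_mul_index
    rw [hX, Nat.card_zpowers, hwo, h24] at this
    rw [hX]; omega
  have hwi : ∀ i : ℕ, w ^ i = z ^ i * x ^ i := fun i => hxz.mul_pow i
  have hz3 : z ^ 3 = z := by rw [pow_succ, pow_two, h2 z hz, one_mul]
  have hw3 : w ^ 3 = z := by rw [hwi, hz3, ← hx, pow_orderOf_eq_one, mul_one]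
  have hzX : z ∈ X.normalCore := by
    intro q
    rw [hzc, mul_inv_cancel_right, ← hw3]
    exact pow_mem (mem_zpowers w) 3
  have hXT : ∀ g ∈ X, g ∈ T → g ∈ D := by
    intro g hg hgT
    obtain ⟨i, rfl⟩ := (mem_powers_iff_mem_zpowers (x := w)).2 hg
    simp only at hgT ⊢
    rw [hwi] at hgT ⊢
    rw [hxT i ((T.mul_mem_cancel_left (pow_mem hz i)).1 hgT), mul_one]
    exact pow_mem (mem_zpowers z) i
  have hxcore : x ∉ X.normalCore := by
    intro hxc
    have hxn : x ∈ T := hkey x fun a ha => by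
      refine hXT _ (X.normalCore_le ?_) (mul_mem (hTn.conj_mem a ha x) (inv_mem ha))
      rw [mul_assoc, mul_assoc, ← mul_assoc a x⁻¹ a⁻¹]
      exact mul_mem hxc ((normalCore_normal X).conj_mem _ (inv_mem hxc) a)
    have h1 := hxT 1 (by rwa [pow_one])
    rw [pow_one] at h1
    rw [h1, orderOf_one] at hx
    norm_num at hx
  have hcore : X.normalCore = D := by
    refine le_antisymm (fun g hg => ?_) (zpowers_le.2 hzX)
    obtain ⟨i, rfl⟩ := (mem_powers_iff_mem_zpowers (x := w)).2 (X.normalCore_le hg)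
    simp only at hg ⊢
    have hxi : x ^ i ∈ X.normalCore := by
      rw [hwi] at hg
      exact (X.normalCore.mul_mem_cancel_left (pow_mem hzX i)).1 hg
    rcases Nat.eq_zero_or_pos (i % 3) with h0 | h0
    · rw [hwi, ← pow_mod_orderOf x i, hx, h0, pow_zero, mul_one]
      exact pow_mem (mem_zpowers z) i
    · exfalso
      rw [← pow_mod_orderOf x i, hx] at hxi
      obtain h | h : i % 3 = 1 ∨ i % 3 = 2 := by omega
      · exact hxcore (by rwa [h, pow_one] at hxi)
      · refine hxcore ?_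
        have h4 := mul_mem (h ▸ hxi) (h ▸ hxi)
        rw [← pow_add, ← pow_mod_orderOf x (2 + 2), hx, show (2 + 2) % 3 = 1 from rfl, pow_one] at h4
        exact h4
  -- the action on the cosets
  have e4 : Nat.card (Q ⧸ X) = 4 := hXidx
  let e : Equiv.Perm (Q ⧸ X) ≃* Equiv.Perm (Fin 4) := (Finite.equivFinOfCardEq e4).permCongrHom
  let π : Q →* Equiv.Perm (Fin 4) := e.toMonoidHom.comp (MulAction.toPermHom Q (Q ⧸ X))
  have hπker : π.ker = D := by
    rw [← hcore, normalCore_eq_ker]
    exact MonoidHom.ker_mulEquiv_comp _ e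
  have hπrange : π.range = alternatingGroup (Fin 4) := by
    refine Equiv.Perm.eq_alternatingGroup_of_index_eq_two ?_
    have hD2 : Nat.card D = 2 := by rw [hD, Nat.card_zpowers, hzo]
    have h12 : Nat.card π.range = 12 := by
      have := D.card_mul_index
      rw [← index_ker, hπker]
      rw [hD2, h24] at this
      omega
    have := π.range.card_mul_index
    rw [h12, Nat.card_perm, Nat.card_fin] at this
    have h24' : Nat.factorial 4 = 24 := rfl
    omega
  let π' : Q →* alternatingGroup (Fin 4) :=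
    π.codRestrict _ fun q => hπrange ▸ ⟨q, rfl⟩
  obtain ⟨ϕ, hϕ⟩ := exists_functional hc h2 hz hz1
  haveI : T.FiniteIndex := inferInstance
  let φ : Q →* M := (MonoidHom.transfer ϕ).prod π'
  have hφz : φ z = τ := by
    refine Prod.ext ?_ (Subtype.ext ?_)
    · show MonoidHom.transfer ϕ z = Multiplicative.ofAdd 1
      rw [MonoidHom.transfer_eq_pow ϕ z fun k g _ => ?_]
      · refine (congrArg ϕ (Subtype.ext ?_)).trans hϕ
        show z ^ T.index = z
        rw [hindex, hz3]
      · rw [mul_assoc, (Commute.pow_left (show Commute z g from (hzc g).symm) k).eq,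
          inv_mul_cancel_left]
    · show π z = 1
      rw [← MonoidHom.mem_ker, hπker]
      exact mem_zpowers z
  have hinj : Function.Injective φ := by
    rw [injective_iff_map_eq_one]
    intro q hq
    have hqD : q ∈ D := by
      rw [← hπker, MonoidHom.mem_ker]
      exact congrArg (fun m : M => (m.2 : Equiv.Perm (Fin 4))) hq
    rcases hDmem q hqD with rfl | rfl
    · rfl
    · rw [hφz] at hq
      exact absurd hq H80.CentTwoAlt.tau_ne.1
  have hbij : Function.Bijective φ :=
    hinj.bijective_of_nat_card_le (le_of_eq (by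
      rw [h24, Nat.card_eq_fintype_card, H80.CentTwoAlt.card_M]))
  exact ⟨MulEquiv.ofBijective φ hbij, hφz⟩

end Abstract

/-- The centralizer of `t` modulo its odd core is `C2 × A4`. -/
theorem exists_hom {G : Type*} [Group G] [Finite G] (S : Sylow 2 G)
    (hS : Cfsg.IsElementaryAbelian 2 (S : Subgroup G)) (h8 : Nat.card (S : Subgroup G) = 8)
    {t : G} (ht : t ∈ S) (ht1 : t ≠ 1)
    (hsol : Group.IsSolvable ↥(Subgroup.centralizer ({t} : Set G)))
    {r : G} (hrN : r ∈ Subgroup.normalizer ((S : Subgroup G) : Set G)) (hrt : r * t = t * r)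
    (hrS : r ∉ Subgroup.centralizer ((S : Subgroup G) : Set G)) :
    ∃ φ : Subgroup.centralizer ({t} : Set G) →* Cfsg.Agent.H80.CentTwoAlt.M,
      Function.Surjective φ ∧
      φ.ker = Cfsg.pPrimeCore 2 ↥(Subgroup.centralizer ({t} : Set G)) ∧
      φ ⟨t, Subgroup.mem_centralizer_singleton_iff.mpr rfl⟩ = Cfsg.Agent.H80.CentTwoAlt.τ := by
  classical
  haveI : Fact (Nat.Prime 2) := ⟨Nat.prime_two⟩
  set H := centralizer ({t} : Set G) with hH
  haveI : Group.IsSolvable ↥H := hsol
  obtain ⟨hScomm, hSexp⟩ := hS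
  have hsc : ∀ a ∈ (S : Subgroup G), ∀ b ∈ (S : Subgroup G), a * b = b * a :=
    fun a ha b hb => setLike_mul_comm ha hb
  have hSH : (S : Subgroup G) ≤ H :=
    fun s hs => mem_centralizer_singleton_iff.2 (hsc s hs t ht)
  set O := Cfsg.pPrimeCore 2 ↥H with hO
  haveI : O.Normal := H19.pPrimeCore_normal 2 _
  haveI : Group.IsSolvable (↥H ⧸ O) := Group.isSolvable_of_surjective (QuotientGroup.mk'_surjective O)
  have hOQ : Cfsg.pPrimeCore 2 (↥H ⧸ O) = ⊥ := H19.pPrimeCore_quotient_pPrimeCore 2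
  set S' : Subgroup ↥H := (S : Subgroup G).subgroupOf H with hS'
  have hS'card : Nat.card S' = 8 := by
    rw [hS', ← h8]; exact Nat.card_congr (Subgroup.subgroupOfEquivOfLe hSH).toEquiv
  set mk := QuotientGroup.mk' O with hmk
  set T := S'.map mk with hT
  have hinjS : ∀ s ∈ S', mk s = 1 → s = 1 := by
    intro s hs h
    rw [hmk, ← MonoidHom.mem_ker, QuotientGroup.ker_mk'] at h
    have h' : s ∈ S' ⊓ O := ⟨hs, h⟩
    rwa [H19.inf_eq_bot_of_isPGroup_coprime (p := 2) (A := S') (B := O)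
      (IsPGroup.of_card (n := 3) (by rw [hS'card]; norm_num)) (H19.pPrimeCore_coprime 2),
      mem_bot] at h'
  have hTcard : Nat.card T = 8 := by
    rw [← hS'card, hT]
    refine Nat.card_congr (Equiv.ofBijective
      (fun s : S' => (⟨mk s, mem_map_of_mem _ s.2⟩ : S'.map mk)) ⟨fun a b hab => ?_, ?_⟩).symm
    · have h1 : mk ((a : ↥H) * (b : ↥H)⁻¹) = 1 := by
        rw [map_mul, map_inv, mul_inv_eq_one]
        exact congrArg Subtype.val hab
      exact Subtype.ext (mul_inv_eq_one.1 (hinjS _ (mul_mem a.2 (inv_mem b.2)) h1))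
    · rintro ⟨_, s, hs, rfl⟩
      exact ⟨⟨s, hs⟩, rfl⟩
  have hTodd : Odd T.index := by
    rw [← Nat.not_even_iff_odd, even_iff_two_dvd]
    intro h
    have h1 : 2 ∣ S'.index :=
      h.trans (S'.index_map_dvd (QuotientGroup.mk'_surjective O))
    refine S.not_dvd_index (h1.trans ?_)
    rw [← relIndex_mul_index hSH]
    exact dvd_mul_right _ _
  have hTc : ∀ a ∈ T, ∀ b ∈ T, a * b = b * a := by
    rintro _ ⟨a, ha, rfl⟩ _ ⟨b, hb, rfl⟩
    rw [← map_mul, ← map_mul]
    exact congrArg mk (Subtype.ext (hsc _ ha _ hb))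
  have hT2 : ∀ a ∈ T, a * a = 1 := by
    rintro _ ⟨a, ha, rfl⟩
    rw [← map_mul, ← map_one mk]
    exact congrArg mk (Subtype.ext (by rw [Subgroup.coe_mul, ← pow_two]; exact hSexp _ ha))
  set t' : ↥H := ⟨t, mem_centralizer_singleton_iff.mpr rfl⟩ with ht'
  have hz1 : mk t' ≠ 1 := fun h => ht1 (congrArg Subtype.val (hinjS t' ht h))
  have hzc : ∀ q : ↥H ⧸ O, q * mk t' = mk t' * q := by
    intro q
    obtain ⟨g, rfl⟩ := QuotientGroup.mk'_surjective O q
    rw [← hmk, ← map_mul, ← map_mul]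
    exact congrArg mk (Subtype.ext (mem_centralizer_singleton_iff.1 g.2))
  set r' : ↥H := ⟨r, mem_centralizer_singleton_iff.2 hrt⟩ with hr'
  have hrr : (∀ a ∈ T, mk r' * a * (mk r')⁻¹ ∈ T) ∧ ∃ a ∈ T, mk r' * a ≠ a * mk r' := by
    constructor
    · rintro _ ⟨a, ha, rfl⟩
      rw [← map_inv, ← map_mul, ← map_mul]
      exact mem_map_of_mem _ ((mem_normalizer_iff.1 hrN _).1 ha)
    · rw [mem_centralizer_iff] at hrS
      push Not at hrS
      obtain ⟨s, hs, hne⟩ := hrS
      refine ⟨mk ⟨s, hSH hs⟩, mem_map_of_mem _ hs, fun h => hne ?_⟩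
      have hcs : r' * ⟨s, hSH hs⟩ * r'⁻¹ * (⟨s, hSH hs⟩ : ↥H)⁻¹ = 1 := by
        refine hinjS _ (mul_mem ((mem_normalizer_iff.1 hrN _).1 hs) (inv_mem hs)) ?_
        rw [map_mul, map_mul, map_mul, map_inv, map_inv, h, mul_inv_cancel_right, mul_inv_cancel]
      have := congrArg Subtype.val (mul_inv_eq_iff_eq_mul.1 (mul_inv_eq_one.1 hcs))
      exact this.symm
  obtain ⟨φ, hφ⟩ := exists_equiv hOQ hTcard hTodd hTc hT2 (mem_map_of_mem mk ht) hz1 hzc
    ⟨mk r', hrr⟩
  refine ⟨φ.toMonoidHom.comp mk, φ.surjective.comp (QuotientGroup.mk'_surjective O), ?_, hφ⟩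
  ext g
  rw [MonoidHom.mem_ker, MonoidHom.comp_apply, MulEquiv.coe_toMonoidHom, MulEquiv.map_eq_one_iff,
    hmk, ← MonoidHom.mem_ker, QuotientGroup.ker_mk']

end Cfsg.Agent.H48.SylowEight
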