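import Cfsg.Agent.H80.CentTwoAlt.Chars
import Cfsg.Agent.H38.TIInd
import Cfsg.Agent.H45.Inflation
import Cfsg.Agent.H40.QuotientBlocks
import Cfsg.Agent.H41.PrincipalSection
import Cfsg.Agent.H35.Quotient
import Cfsg.Agent.H42.MaxIdeal
import Cfsg.Agent.S4487

/-!
# A centraliser which is `C2 × A4` modulo a normal subgroup of odd order
-/

set_option autoImplicit false
set_option synthInstance.maxSize 4096
set_option linter.unusedSectionVars false
set_option maxHeartbeats 1000000

namespace Cfsg.Agent.H48.SylowEight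

open scoped ComplexConjugate
open Cfsg.Agent.H80.CentTwoAlt (M A τ cls ofTable ofAdd_ne special_iff tau_ne)

theorem pow_twelve : ∀ m : M, m ^ 12 = 1 := by decide +kernel

theorem six_tau : ∀ m : M, ∀ k : Fin 6, m ^ (2 * (k : ℕ) + 1) = τ → m ^ 3 = τ := by decide +kernel

theorem three_trivial : ∀ x : M, x ^ 3 = 1 → (∀ g : M, ((g * x * g⁻¹) * x⁻¹) ^ 3 = 1) → x = 1 := by
  decide +kernel

theorem centralizer_twoPart : ∀ x : M, (∀ y : M, y * y = 1 → y * x = x * y) → x * x = 1 := by
  decide +kernel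

/-- A centraliser of an involution which maps onto `C2 × A4` with kernel of odd order. -/
structure Setting (G : Type*) [Group G] where
  t : G
  φ : Subgroup.centralizer ({t} : Set G) →* M
  surj : Function.Surjective φ
  odd : Odd (Nat.card φ.ker)
  t_mul : t * t = 1
  map_t : φ ⟨t, Subgroup.mem_centralizer_singleton_iff.mpr rfl⟩ = τ
  fusion : ∀ {x : G}, x * x = 1 → x ≠ 1 → IsConj t x

variable {G : Type*} [Group G] [Fintype G] (S : Setting G)

/-- The centralizer. -/
abbrev Setting.H : Subgroup G := Subgroup.centralizer ({S.t} : Set G)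

/-- The involution inside its centralizer. -/
abbrev Setting.t' : S.H := ⟨S.t, Subgroup.mem_centralizer_singleton_iff.mpr rfl⟩

omit [Fintype G] in
theorem Setting.t_ne : S.t ≠ 1 := by
  intro h
  apply tau_ne.1
  rw [← S.map_t, ← _root_.map_one S.φ]
  exact congrArg S.φ (Subtype.ext h)

theorem Setting.card_H : Nat.card S.H = 24 * Nat.card S.φ.ker := by
  rw [← S.φ.ker.index_mul_card, Subgroup.index_ker, MonoidHom.range_eq_top.mpr S.surj,
    Subgroup.card_top, Nat.card_eq_fintype_card, H80.CentTwoAlt.card_M]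

/-- An element of odd order in the kernel. -/
theorem Setting.odd_pow {o : S.H} (ho : o ∈ S.φ.ker) : o ^ Nat.card S.φ.ker = 1 :=
  congrArg Subtype.val (pow_card_eq_one' (x := (⟨o, ho⟩ : S.φ.ker)))

/-- Odd powers of the involution. -/
theorem Setting.t_pow (j : ℕ) : S.t ^ (2 * j + 1) = S.t := by
  rw [pow_succ, pow_mul, pow_two, S.t_mul, one_pow, one_mul]

/-- Transport to the centralizer. -/
noncomputable def Setting.onH (T : Fin 4 → ℂ) : S.H → ℂ := fun h => ofTable T (S.φ h)

/-- The support set: elements with an odd power equal to the involution. -/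
def Setting.special : Set G := {g | ∃ k : ℕ, g ^ (2 * k + 1) = S.t}

theorem Setting.special_ti : ∀ g : G, ∀ x ∈ S.special, g * x * g⁻¹ ∈ S.special →
    g ∈ S.H := by
  rintro g x ⟨k, hk⟩ ⟨l, hl⟩
  rw [conj_pow] at hl
  refine Subgroup.mem_centralizer_singleton_iff.mpr (mul_inv_eq_iff_eq_mul.mp ?_)
  have h1 : (g * x ^ (2 * l + 1) * g⁻¹) ^ (2 * k + 1) = g * S.t ^ (2 * l + 1) * g⁻¹ := by
    rw [conj_pow, ← pow_mul, mul_comm (2 * l + 1), pow_mul, hk]
  rw [hl, S.t_pow, S.t_pow] at h1
  exact h1.symm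

theorem Setting.mem_special_iff (y : S.H) :
    (y : G) ∈ S.special ↔ ((S.φ y).1 ≠ 1 ∧ cls (S.φ y).2 ≠ 1) := by
  rw [← special_iff]
  constructor
  · rintro ⟨k, hk⟩
    have h : S.φ y ^ (2 * k + 1) = τ := by
      rw [← map_pow, ← S.map_t]
      exact congrArg S.φ (Subtype.ext (by simpa using hk))
    refine six_tau _ ⟨k % 6, Nat.mod_lt _ (by norm_num)⟩ ?_
    rw [← h, show 2 * k + 1 = 12 * (k / 6) + (2 * (k % 6) + 1) by omega, pow_add _ (12 * _), pow_mul,
      pow_twelve, one_pow, one_mul]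
  · intro h
    obtain ⟨j, hj⟩ := S.odd
    refine ⟨3 * j + 1, ?_⟩
    have hmem : y ^ 3 * S.t' ∈ S.φ.ker := by
      rw [MonoidHom.mem_ker, map_mul, map_pow, h, S.map_t, tau_ne.2]
    have hc : Commute (y : G) S.t := Subgroup.mem_centralizer_singleton_iff.mp y.2
    have h1 : ((y : G) ^ 3 * S.t) ^ (2 * j + 1) = 1 := by
      have := congrArg Subtype.val (hj ▸ S.odd_pow hmem)
      simpa using this
    rw [(hc.pow_left 3).mul_pow, ← pow_mul, S.t_pow] at h1
    rw [show 2 * (3 * j + 1) + 1 = 3 * (2 * j + 1) by ring]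
    calc (y : G) ^ (3 * (2 * j + 1)) = (y : G) ^ (3 * (2 * j + 1)) * S.t * S.t := by
          rw [mul_assoc, S.t_mul, mul_one]
      _ = S.t := by rw [h1, one_mul]

theorem Setting.onH_supported {T : Fin 4 → ℂ} (hT : T 1 = 0) (y : S.H)
    (hy : (y : G) ∉ S.special) : S.onH T y = 0 := by
  rw [S.mem_special_iff] at hy
  unfold Setting.onH ofTable
  split_ifs with h
  · rfl
  · rw [show cls (S.φ y).2 = 1 by tauto]
    exact hT

theorem Setting.onH_isClassFunction (T : Fin 4 → ℂ) : Cfsg.IsClassFunction S.H (S.onH T) :=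
  fun g x => by
    simp only [Setting.onH, map_mul, map_inv]
    exact H80.CentTwoAlt.isClassFunction_ofTable _ (S.φ g) (S.φ x)

theorem Setting.gen_ind {T : Fin 4 → ℂ} (h : Cfsg.IsGeneralizedCharacter M (ofTable T)) :
    Cfsg.IsGeneralizedCharacter G (Cfsg.indFun S.H (S.onH T)) := by
  obtain ⟨a, b, ha, hb, hab⟩ := h
  have e : S.onH T = (fun h => a (S.φ h)) - fun h => b (S.φ h) := by
    funext x
    simp only [Setting.onH, hab]
    rfl
  rw [e]
  exact ⟨_, _, H25.isCharacter_indFun _ (H26.isCharacter_comp ha S.φ),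
    H25.isCharacter_indFun _ (H26.isCharacter_comp hb S.φ),
    H25.indFun_sub _ _ _⟩

/-- Sums over the centraliser of functions of the image. -/
theorem Setting.sum_comp (f : M → ℂ) [Fintype S.H] :
    ∑ y : S.H, f (S.φ y) = (Nat.card S.φ.ker : ℂ) * ∑ m : M, f m := by
  classical
  rw [← Finset.sum_fiberwise Finset.univ S.φ (fun y => f (S.φ y)), Finset.mul_sum]
  refine Finset.sum_congr rfl fun m _ => ?_
  obtain ⟨y₀, rfl⟩ := S.surj m
  rw [Finset.sum_congr rfl (g := fun _ => f (S.φ y₀))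
    (fun y hy => congrArg f (Finset.mem_filter.1 hy).2), Finset.sum_const, nsmul_eq_mul]
  congr 1
  rw [Nat.cast_inj, ← Fintype.card_subtype, ← Nat.card_eq_fintype_card]
  exact Nat.card_congr
    { toFun := fun y => ⟨y₀⁻¹ * y.1, by rw [MonoidHom.mem_ker, map_mul, map_inv, y.2, inv_mul_cancel]⟩
      invFun := fun o => ⟨y₀ * o.1, by rw [map_mul, MonoidHom.mem_ker.mp o.2, mul_one]⟩
      left_inv := fun y => Subtype.ext (mul_inv_cancel_left _ _)
      right_inv := fun o => Subtype.ext (inv_mul_cancel_left _ _) }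

theorem Setting.classInner_onH [Fintype S.H] (T U : Fin 4 → ℂ) :
    Cfsg.classInner (S.onH T) (S.onH U) = Cfsg.classInner (ofTable T) (ofTable U) := by
  have hk : (Nat.card S.φ.ker : ℂ) ≠ 0 := Nat.cast_ne_zero.2 Nat.card_pos.ne'
  simp only [Cfsg.classInner, Setting.onH]
  rw [S.sum_comp (fun m => ofTable T m * conj (ofTable U m)), S.card_H, Nat.card_eq_fintype_card (α := M),
    H80.CentTwoAlt.card_M]
  push_cast
  field_simp

/-! ### The principal block -/

variable {P : Ideal Cfsg.AlgInt} (hP : Cfsg.IsPModular 2 P)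
include hP

/-- Characters inflated from the quotient lie in the principal block. -/
theorem Setting.mem_principalBlock (θ : Cfsg.IrrCharacter M) :
    H45.inflIrr S.φ S.surj θ ∈ Cfsg.principalBlock P S.H := by
  haveI := hP.2.1
  haveI : Fact (Nat.Prime 2) := ⟨Nat.prime_two⟩
  let e : S.H ⧸ S.φ.ker ≃* M := QuotientGroup.quotientKerEquivOfSurjective S.φ S.surj
  have hM1 : Cfsg.pPrimeCore 2 M = ⊥ := by
    refine (Subgroup.eq_bot_iff_forall _).2 fun x hx => ?_
    have hn := H19.pPrimeCore_normal 2 M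
    have hodd : ∀ z ∈ Cfsg.pPrimeCore 2 M, z ^ 3 = 1 := by
      intro z hz
      have h1 : orderOf z ∣ 12 := orderOf_dvd_of_pow_eq_one (pow_twelve z)
      have h2 : (orderOf z).Coprime 2 := (H19.pPrimeCore_coprime (G := M) 2).coprime_dvd_left
        (Subgroup.orderOf_dvd_natCard _ hz)
      refine orderOf_dvd_iff_pow_eq_one.1 ?_
      have h4 : (orderOf z).Coprime 4 := h2.pow_right 2
      exact Nat.Coprime.dvd_of_dvd_mul_right (k := orderOf z) (n := 4) (m := 3) h4 h1
    exact three_trivial x (hodd x hx) fun g => hodd _ (mul_mem (hn.conj_mem x hx g) (inv_mem hx))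
  have hconstr : Subgroup.centralizer (Cfsg.pCore 2 M : Set M) ≤ Cfsg.pCore 2 M := by
    have hle : H80.CentTwoAlt.twoPart ≤ Cfsg.pCore 2 M := by
      refine H19.le_pCore ?_ (IsPGroup.of_card (n := 3)
        (by rw [H80.CentTwoAlt.card_twoPart]; norm_num))
      refine ⟨fun x hx g => ?_⟩
      show g * x * g⁻¹ * (g * x * g⁻¹) = 1
      rw [show g * x * g⁻¹ * (g * x * g⁻¹) = g * (x * x) * g⁻¹ by group,
        show x * x = 1 from hx, mul_one, mul_inv_cancel]
    intro x hx
    refine hle ?_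
    show x * x = 1
    exact centralizer_twoPart x fun y hy => Subgroup.mem_centralizer_iff.1 hx y (hle hy)
  let θ' : Cfsg.IrrCharacter (S.H ⧸ S.φ.ker) := H45.inflIrr e.toMonoidHom e.surjective θ
  let one' : Cfsg.IrrCharacter (S.H ⧸ S.φ.ker) := H26.oneIrr _
  have hQ1 : Cfsg.pPrimeCore 2 (S.H ⧸ S.φ.ker) = ⊥ := by
    refine (Subgroup.eq_bot_iff_forall _).2 fun x hx => e.injective ?_
    have hmap : (Cfsg.pPrimeCore 2 (S.H ⧸ S.φ.ker)).map e.toMonoidHom ≤ Cfsg.pPrimeCore 2 M :=
      H19.le_pPrimeCore ((H19.pPrimeCore_normal 2 _).map _ e.surjective)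
        ((H19.pPrimeCore_coprime 2).coprime_dvd_left (Subgroup.card_map_dvd _ _))
    rw [map_one]
    exact Subgroup.mem_bot.1 (hM1 ▸ hmap ⟨x, hx, rfl⟩)
  have hQ2 : Subgroup.centralizer (Cfsg.pCore 2 (S.H ⧸ S.φ.ker) : Set _) ≤
      Cfsg.pCore 2 (S.H ⧸ S.φ.ker) := H35.centralizer_pCore_le_equiv e.symm hconstr
  have h2 := S4487.result 2 P hP hQ1 hQ2 one' θ'
  have h3 := H40.sameBlock_inflate S.φ.ker h2
  show Cfsg.SameBlock P _ _
  convert h3 using 1 <;> exact rfl

/-- The expansion of a function of the image on the section. -/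
theorem Setting.blockCoeff_mul [Fintype S.H] (T : Fin 4 → ℂ) (y : S.H) :
    ∑ k : S.H, Cfsg.blockCoeff (Cfsg.principalBlock P S.H) k * S.onH T (k * y) = S.onH T y := by
  classical
  haveI := hP.2.1
  have hexp := H26.class_function_expansion (ofTable T) (H80.CentTwoAlt.isClassFunction_ofTable T)
  have he : ∀ z : S.H, S.onH T z = ∑ θ : Cfsg.IrrCharacter M, Cfsg.classInner (ofTable T) θ.1 *
      (H45.inflIrr S.φ S.surj θ).1 z := fun z => by
    have := congrFun hexp (S.φ z)
    rw [Finset.sum_apply] at this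
    exact this
  simp only [he, Finset.mul_sum]
  rw [Finset.sum_comm]
  refine Finset.sum_congr rfl fun θ _ => ?_
  simp only [mul_left_comm _ (Cfsg.classInner _ _) _]
  rw [← Finset.mul_sum, H40.sum_blockCoeff_mul_irr, if_pos (S.mem_principalBlock hP θ)]

theorem Setting.isPPart {y : S.H} (hy : (y : G) ∈ S.special) :
    Cfsg.IsPPart 2 (y : G) S.t := by
  obtain ⟨k, hk⟩ := hy
  have hc : Commute S.t (y : G) := (Subgroup.mem_centralizer_singleton_iff.mp y.2).symm
  refine ⟨S.t * (y : G), by rw [← mul_assoc, S.t_mul, one_mul],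
    (Commute.refl _).mul_right hc, ⟨1, by rw [pow_one]; exact orderOf_eq_prime (by rw [pow_two, S.t_mul]) S.t_ne⟩, ?_⟩
  intro h
  have h1 : (S.t * (y : G)) ^ (2 * k + 1) = 1 := by
    rw [hc.mul_pow, hk, pow_succ, pow_mul, pow_two, S.t_mul, one_pow, one_mul, S.t_mul]
  have := h.trans (orderOf_dvd_of_pow_eq_one h1)
  omega

/-- The values of a character on the section, through the block of the centraliser. -/
theorem Setting.section_eq [Fintype S.H] {y : S.H} (hy : (y : G) ∈ S.special)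
    (χ : Cfsg.IrrCharacter G) [Decidable (χ ∈ Cfsg.principalBlock P G)] :
    ∑ k : S.H, Cfsg.blockCoeff (Cfsg.principalBlock P S.H) k * (χ : G → ℂ) ((k : G) * (y : G)) =
      if χ ∈ Cfsg.principalBlock P G then (χ : G → ℂ) (y : G) else 0 := by
  haveI := hP.2.1
  haveI : Fact (Nat.Prime 2) := ⟨Nat.prime_two⟩
  have ho : ∃ j, orderOf S.t = 2 ^ j :=
    ⟨1, by rw [pow_one]; exact orderOf_eq_prime (by rw [pow_two, S.t_mul]) S.t_ne⟩
  have h := H40.sum_inducingSet_mul hP ho H41.isPBlock_principalBlock (S.isPPart hP hy) χ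
  rw [H41.inducingSet_principalBlock hP ho] at h
  convert h using 2

/-- Members of the principal block are constant on the cosets of the kernel in the section. -/
theorem Setting.section_mul [Fintype S.H] {χ : Cfsg.IrrCharacter G}
    (hχ : χ ∈ Cfsg.principalBlock P G) {y o : S.H} (hy : (y : G) ∈ S.special) (ho : o ∈ S.φ.ker) :
    (χ : G → ℂ) ((y * o : S.H) : G) = (χ : G → ℂ) (y : G) := by
  classical
  haveI := hP.2.1
  haveI : Fact (Nat.Prime 2) := ⟨Nat.prime_two⟩
  have hy' : ((y * o : S.H) : G) ∈ S.special := by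
    rw [S.mem_special_iff, map_mul, MonoidHom.mem_ker.mp ho, mul_one, ← S.mem_special_iff]
    exact hy
  have e1 := S.section_eq hP hy' χ
  have e2 := S.section_eq hP hy χ
  rw [if_pos hχ] at e1 e2
  rw [← e1, ← e2]
  refine Fintype.sum_equiv (Equiv.mulRight (y * o * y⁻¹)) _ _ fun k => ?_
  have hn : (¬ 2 ∣ Nat.card S.φ.ker) := fun h => Nat.not_even_iff_odd.2 S.odd (even_iff_two_dvd.2 h)
  have hm : y * o * y⁻¹ ∈ S.φ.ker := (MonoidHom.normal_ker S.φ).conj_mem o ho y
  simp only [Equiv.coe_mulRight]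
  congr 1
  · simp only [Cfsg.blockCoeff]
    congr 1
    refine finsum_congr fun ψ => finsum_congr fun hψ => ?_
    rw [H41.mul_eq_of_mem_principalBlock hP S.φ.ker hn hψ hm k]
  · congr 1
    simp only [Subgroup.coe_mul, Subgroup.coe_inv]
    group

theorem Setting.blockCoeff_conj (b : Set (Cfsg.IrrCharacter S.H)) (k : S.H) :
    conj (Cfsg.blockCoeff b k) = Cfsg.blockCoeff b k⁻¹ := by
  haveI := Fintype.ofFinite S.H
  simp only [Cfsg.blockCoeff]
  rw [map_mul, map_inv₀, map_natCast]
  congr 1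
  rw [finsum_mem_eq_finite_toFinset_sum _ (Set.toFinite _),
    finsum_mem_eq_finite_toFinset_sum _ (Set.toFinite _), map_sum]
  refine Finset.sum_congr rfl fun ψ _ => ?_
  obtain ⟨n, -, hn⟩ := H57.irr_degree ψ.2
  rw [map_mul, hn, map_natCast, Complex.conj_conj, H26.irr_inv, Complex.conj_conj]

/-- Outside the principal block the coefficients vanish. -/
theorem Setting.sum_onH_eq_zero [Fintype S.H] {χ : Cfsg.IrrCharacter G}
    (hχ : χ ∉ Cfsg.principalBlock P G) {T : Fin 4 → ℂ} (hT : T 1 = 0) :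
    ∑ y : S.H, S.onH T y * conj ((χ : G → ℂ) (y : G)) = 0 := by
  classical
  set b := Cfsg.principalBlock P S.H
  calc ∑ y : S.H, S.onH T y * conj ((χ : G → ℂ) (y : G))
      = ∑ y : S.H, ∑ k : S.H, Cfsg.blockCoeff b k * S.onH T (k * y) * conj ((χ : G → ℂ) (y : G)) :=
        Finset.sum_congr rfl fun y _ => by rw [← Finset.sum_mul, S.blockCoeff_mul hP T y]
    _ = ∑ k : S.H, ∑ z : S.H,
          Cfsg.blockCoeff b k * S.onH T z * conj ((χ : G → ℂ) ((k⁻¹ * z : S.H) : G)) := by
        rw [Finset.sum_comm]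
        refine Finset.sum_congr rfl fun k _ => Fintype.sum_equiv (Equiv.mulLeft k) _ _ fun y => ?_
        simp
    _ = ∑ z : S.H, S.onH T z * conj (∑ k : S.H, Cfsg.blockCoeff b k *
          (χ : G → ℂ) ((k : G) * (z : G))) := by
        rw [Finset.sum_comm]
        refine Finset.sum_congr rfl fun z _ => ?_
        rw [map_sum, Finset.mul_sum]
        refine Fintype.sum_equiv (Equiv.inv S.H) _ _ fun k => ?_
        simp only [Equiv.inv_apply, map_mul, S.blockCoeff_conj hP, inv_inv, Subgroup.coe_mul]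
        ring
    _ = 0 := by
        refine Finset.sum_eq_zero fun z _ => ?_
        by_cases hz : (z : G) ∈ S.special
        · rw [S.section_eq hP hz χ, if_neg hχ, map_zero, mul_zero]
        · rw [S.onH_supported hT z hz, zero_mul]

end Cfsg.Agent.H48.SylowEight
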